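import Mathlib
import Cfsg.Agent.Lib.Helper51.NegOne

/-!
# OMEGA-SYL piece GT (helper34, for helper81)

Under a linear isometry of coordinate spaces the Gram determinants differ by a non-zero
square.
-/

set_option autoImplicit false
set_option linter.unusedSectionVars false

namespace Cfsg.Agent.Lib.Helper34.OmegaGT

open Cfsg Cfsg.Agent.Lib.Helper51

section GT

variable {ι₁ ι₂ : Type} [Fintype ι₁] [DecidableEq ι₁] [Fintype ι₂] [DecidableEq ι₂]
variable {F : Type*} [Field F]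

/-- the Gram matrix of the pulled back form: `gram Q₁ = Pᵀ * gram Q₂ * P` -/
theorem gram_pullback (Q₁ : QuadraticForm F (ι₁ → F)) (Q₂ : QuadraticForm F (ι₂ → F))
    (L : (ι₁ → F) →ₗ[F] (ι₂ → F)) (hL : ∀ v, Q₂ (L v) = Q₁ v) :
    gram Q₁ = (LinearMap.toMatrix' L).transpose * gram Q₂ * LinearMap.toMatrix' L := by
  have hmv : ∀ v, L v = (LinearMap.toMatrix' L).mulVec v := fun v => by
    rw [← Matrix.toLin'_apply, Matrix.toLin'_toMatrix']
  have e1 : ∀ (N : Matrix ι₁ ι₁ F) (a b : ι₁),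
      Pi.single a 1 ⬝ᵥ N.mulVec (Pi.single b 1) = N a b := by
    intro N a b
    simp
  ext a b
  have h : QuadraticMap.polar ⇑Q₁ (Pi.single a 1) (Pi.single b 1)
      = QuadraticMap.polar ⇑Q₂ (L (Pi.single a 1)) (L (Pi.single b 1)) := by
    unfold QuadraticMap.polar
    rw [← map_add, hL, hL, hL]
  rw [polar_eq_gram, polar_eq_gram, e1, hmv, hmv] at h
  rw [h, ← e1 ((LinearMap.toMatrix' L).transpose * gram Q₂ * LinearMap.toMatrix' L) a b,
    ← Matrix.mulVec_mulVec, ← Matrix.mulVec_mulVec,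
    Matrix.dotProduct_mulVec (Pi.single a 1) (LinearMap.toMatrix' L).transpose,
    Matrix.vecMul_transpose]

theorem gram_det_transport (Q₁ : QuadraticForm F (ι₁ → F)) (Q₂ : QuadraticForm F (ι₂ → F))
    (L : (ι₁ → F) ≃ₗ[F] (ι₂ → F)) (hL : ∀ v, Q₂ (L v) = Q₁ v) :
    ∃ c : F, c ≠ 0 ∧ (gram Q₁).det = c ^ 2 * (gram Q₂).det := by
  have hcard : Fintype.card ι₁ = Fintype.card ι₂ := by
    have h := L.finrank_eq
    rwa [Module.finrank_fintype_fun_eq_card, Module.finrank_fintype_fun_eq_card] at h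
  obtain ⟨e⟩ : Nonempty (ι₁ ≃ ι₂) := Fintype.card_eq.mp hcard
  have hG := gram_pullback Q₁ Q₂ (L : (ι₁ → F) →ₗ[F] (ι₂ → F)) hL
  have hQP : LinearMap.toMatrix' (L.symm : (ι₂ → F) →ₗ[F] (ι₁ → F))
      * LinearMap.toMatrix' (L : (ι₁ → F) →ₗ[F] (ι₂ → F)) = 1 := by
    rw [← LinearMap.toMatrix'_comp, LinearEquiv.symm_comp, LinearMap.toMatrix'_id]
  have hdet : ((LinearMap.toMatrix' (L.symm : (ι₂ → F) →ₗ[F] (ι₁ → F))).submatrix id e).det
      * ((LinearMap.toMatrix' (L : (ι₁ → F) →ₗ[F] (ι₂ → F))).submatrix e id).det = 1 := by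
    rw [← Matrix.det_mul, Matrix.submatrix_mul_equiv, hQP, Matrix.submatrix_id_id,
      Matrix.det_one]
  refine ⟨((LinearMap.toMatrix' (L : (ι₁ → F) →ₗ[F] (ι₂ → F))).submatrix e id).det,
    right_ne_zero_of_mul_eq_one hdet, ?_⟩
  have hre : gram Q₁
      = ((LinearMap.toMatrix' (L : (ι₁ → F) →ₗ[F] (ι₂ → F))).submatrix e id).transpose
      * (gram Q₂).submatrix e e
      * (LinearMap.toMatrix' (L : (ι₁ → F) →ₗ[F] (ι₂ → F))).submatrix e id := by
    rw [Matrix.transpose_submatrix, Matrix.submatrix_mul_equiv, Matrix.submatrix_mul_equiv,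
      Matrix.submatrix_id_id]
    exact hG
  rw [hre, Matrix.det_mul, Matrix.det_mul, Matrix.det_transpose,
    Matrix.det_submatrix_equiv_self]
  ring

end GT

end Cfsg.Agent.Lib.Helper34.OmegaGT
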