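import Mathlib
import Cfsg.Agent.Lib.Helper18.LSDefs
import Cfsg.Agent.Lib.Helper18.WRDefs

/-!
# Project WR (helper18, S2347), piece DETSMUL (helper34)

For an idempotent `π` of trace `r` with complementary idempotent `π' = 1 - π` and `A` commuting
with `π`: `det ((z • A) π + π') = z ^ r * det (A π + π')`.  Indeed
`(z • A) π + π' = (z • π + π') (A π + π')`, and `z • π + π'` is `z` on the range of `π`
(of dimension `r`) and the identity on its kernel.
-/

set_option autoImplicit false

namespace Cfsg.Agent.Lib.Helper18.WR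

open Matrix

universe u

variable {F : Type u} [Field F] {n : ℕ}

/-- the determinant of `z • π + (1 - π)` for an idempotent `π` of trace `r` -/
theorem detsmul_det_proj {E : Type*} [AddCommGroup E] [Module ℂ E] [FiniteDimensional ℂ E]
    (π π' : Module.End ℂ E) (hπ : π * π = π) (h1 : π + π' = 1) (r : ℕ)
    (hr : LinearMap.trace ℂ E π = (r : ℂ)) (z : ℂ) :
    LinearMap.det (z • π + π') = z ^ r := by
  classical
  have hπ' : π' = 1 - π := eq_sub_of_add_eq' h1
  have hproj : LinearMap.IsProj (LinearMap.range π) π :=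
    LinearMap.IsIdempotentElem.isProj_range π hπ
  have hc : IsCompl (LinearMap.range π) (LinearMap.ker π) := hproj.isCompl
  have hfin : Module.finrank ℂ ↥(LinearMap.range π) = r := by
    have ht := hproj.trace
    rw [hr] at ht
    exact (Nat.cast_injective ht).symm
  have hg : z • π + π' =
      ((LinearMap.range π).prodEquivOfIsCompl (LinearMap.ker π) hc :
          (↥(LinearMap.range π) × ↥(LinearMap.ker π)) →ₗ[ℂ] E) ∘ₗ
        (LinearMap.prodMap (z • (LinearMap.id : ↥(LinearMap.range π) →ₗ[ℂ] ↥(LinearMap.range π)))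
          (LinearMap.id : ↥(LinearMap.ker π) →ₗ[ℂ] ↥(LinearMap.ker π))) ∘ₗ
        (((LinearMap.range π).prodEquivOfIsCompl (LinearMap.ker π) hc).symm :
          E →ₗ[ℂ] (↥(LinearMap.range π) × ↥(LinearMap.ker π))) := by
    apply LinearMap.ext
    intro v
    obtain ⟨⟨x, y⟩, rfl⟩ :=
      ((LinearMap.range π).prodEquivOfIsCompl (LinearMap.ker π) hc).surjective v
    have hx : π (x : E) = x := hproj.map_id x x.2
    have hy : π (y : E) = 0 := LinearMap.mem_ker.mp y.2
    rw [LinearMap.comp_apply, LinearMap.comp_apply, LinearEquiv.coe_coe, LinearEquiv.coe_coe,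
      LinearEquiv.symm_apply_apply, LinearMap.prodMap_apply,
      Submodule.coe_prodEquivOfIsCompl', Submodule.coe_prodEquivOfIsCompl']
    show (z • π + π') ((x : E) + (y : E)) =
      (((z • (LinearMap.id : ↥(LinearMap.range π) →ₗ[ℂ] ↥(LinearMap.range π))) x :
        ↥(LinearMap.range π)) : E) + (((LinearMap.id : ↥(LinearMap.ker π) →ₗ[ℂ] ↥(LinearMap.ker π)) y :
        ↥(LinearMap.ker π)) : E)
    rw [hπ', LinearMap.add_apply, LinearMap.smul_apply, LinearMap.sub_apply, map_add, hx, hy,
      LinearMap.smul_apply, LinearMap.id_apply, LinearMap.id_apply, Submodule.coe_smul,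
      Module.End.one_apply, add_zero]
    abel
  rw [hg, LinearMap.det_conj, LinearMap.det_prodMap, LinearMap.det_smul, LinearMap.det_id,
    LinearMap.det_id, mul_one, mul_one, hfin]

-- piece DETSMUL
theorem det_smul_proj {E : Type*} [AddCommGroup E] [Module ℂ E] [FiniteDimensional ℂ E]
    (π π' : Module.End ℂ E) (hπ : π * π = π) (h1 : π + π' = 1) (r : ℕ)
    (hr : LinearMap.trace ℂ E π = (r : ℂ)) (A : Module.End ℂ E) (hA : A * π = π * A) (z : ℂ) :
    LinearMap.det ((z • A) * π + π') = z ^ r * LinearMap.det (A * π + π') := by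
  have hπ' : π' = 1 - π := eq_sub_of_add_eq' h1
  have e1 : π * π' = 0 := by rw [hπ', mul_sub, mul_one, hπ, sub_self]
  have e2 : π' * π = 0 := by rw [hπ', sub_mul, one_mul, hπ, sub_self]
  have e3 : π' * π' = π' := by
    have : π' * π' = π' * (1 - π) := by rw [← hπ']
    rw [this, mul_sub, mul_one, e2, sub_zero]
  have e4 : π * (A * π) = A * π := by rw [← mul_assoc, ← hA, mul_assoc, hπ]
  have e5 : π' * (A * π) = 0 := by rw [hA, ← mul_assoc, e2, zero_mul]
  have hfac : (z • A) * π + π' = (z • π + π') * (A * π + π') := by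
    simp only [add_mul, mul_add, smul_mul_assoc, e4, e1, e5, e3, smul_zero, add_zero, zero_add]
  rw [hfac, map_mul, detsmul_det_proj π π' hπ h1 r hr z]

end Cfsg.Agent.Lib.Helper18.WR
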