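import Cfsg.Agent.Lib.Helper3.BG12Defs
import Cfsg.Agent.Lib.Helper1.Hall

/-!
# B&G section 12, piece P16H (helper34): in a solvable group `X = B L` with `B` normal, a
subgroup `Y` of order coprime to `|B|` is conjugate into `L`.
-/

set_option autoImplicit false

open Cfsg Cfsg.Agent.Lib.Helper32 Cfsg.Agent.Lib.Helper32.BG10 Cfsg.Agent.Lib.Helper3.BG12

namespace Cfsg.Agent.Lib.Helper34.BG12

universe u

variable {G : Type u} [Group G] [Finite G]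

open scoped Pointwise in
/-- type-level version of `exists_cj_le_of_coprime` -/
theorem p16h_aux [Group.IsSolvable G] (B L Y : Subgroup G) [B.Normal] (hBL : B ⊔ L = ⊤)
    (hcop : (Nat.card Y).Coprime (Nat.card B)) : ∃ x : G, ∀ y ∈ Y, x * y * x⁻¹ ∈ L := by
  classical
  have hBY : B ⊓ Y = ⊥ := disjoint_iff.mp (Subgroup.disjoint_of_coprime_natCard hcop.symm)
  have hrelY : B.relIndex (B ⊔ Y) = Nat.card Y := by
    rw [Subgroup.relIndex_sup_left, ← Subgroup.inf_relIndex_right, hBY,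
      Subgroup.relIndex_bot_left]
  have hcardW : Nat.card ↥(B ⊔ Y) = Nat.card Y * Nat.card B := by
    have h1 := Subgroup.relIndex_mul_relIndex ⊥ B (B ⊔ Y) bot_le le_sup_left
    rw [Subgroup.relIndex_bot_left, Subgroup.relIndex_bot_left, hrelY] at h1
    rw [← h1, mul_comm]
  have hsup : B ⊔ (L ⊓ (B ⊔ Y)) = B ⊔ Y := by
    apply le_antisymm
    · exact sup_le le_sup_left inf_le_right
    · intro w hw
      have hw' : w ∈ B ⊔ L := by
        rw [hBL]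
        exact Subgroup.mem_top w
      rw [← SetLike.mem_coe, Subgroup.normal_mul] at hw'
      obtain ⟨b, hb, l, hl, rfl⟩ := Set.mem_mul.1 hw'
      have hlW : l ∈ B ⊔ Y := by
        have h2 : l = b⁻¹ * (b * l) := by group
        rw [h2]
        exact (B ⊔ Y).mul_mem ((B ⊔ Y).inv_mem (Subgroup.mem_sup_left hb)) hw
      exact (B ⊔ (L ⊓ (B ⊔ Y))).mul_mem (Subgroup.mem_sup_left hb)
        (Subgroup.mem_sup_right ⟨hl, hlW⟩)
  have hcardL1 : Nat.card ↥(L ⊓ (B ⊔ Y)) =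
      Nat.card Y * Nat.card ↥(B ⊓ (L ⊓ (B ⊔ Y))) := by
    have h1 := Subgroup.relIndex_mul_relIndex ⊥ (B ⊓ (L ⊓ (B ⊔ Y))) (L ⊓ (B ⊔ Y)) bot_le
      inf_le_right
    rw [Subgroup.relIndex_bot_left, Subgroup.relIndex_bot_left, Subgroup.inf_relIndex_right,
      ← Subgroup.relIndex_sup_left, hsup, hrelY] at h1
    rw [← h1, mul_comm]
  have hcop1 : (Nat.card Y).Coprime (Nat.card ↥(B ⊓ (L ⊓ (B ⊔ Y)))) :=
    Nat.Coprime.coprime_dvd_right (Subgroup.card_dvd_of_le inf_le_left) hcop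
  obtain ⟨Y₁', hY₁'⟩ := Cfsg.Agent.Lib.Helper1.hall_exists (G := ↥(L ⊓ (B ⊔ Y))) _ _
    hcardL1 hcop1
  obtain ⟨Y₁, hY₁⟩ : ∃ Y₁ : Subgroup G, Y₁ = Y₁'.map (L ⊓ (B ⊔ Y)).subtype := ⟨_, rfl⟩
  have hY₁card : Nat.card Y₁ = Nat.card Y := by
    rw [hY₁, Subgroup.card_map_of_injective (Subgroup.subtype_injective _), hY₁']
  have hY₁le : Y₁ ≤ L ⊓ (B ⊔ Y) := by
    rw [hY₁]
    exact Subgroup.map_subtype_le _
  have hc1 : Nat.card (Y.subgroupOf (B ⊔ Y)) = Nat.card Y :=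
    Nat.card_congr (Subgroup.subgroupOfEquivOfLe le_sup_right).toEquiv
  have hc2 : Nat.card (Y₁.subgroupOf (B ⊔ Y)) = Nat.card Y := by
    rw [Nat.card_congr (Subgroup.subgroupOfEquivOfLe (hY₁le.trans inf_le_right)).toEquiv,
      hY₁card]
  obtain ⟨g, hg⟩ := Cfsg.Agent.Lib.Helper1.hall_conj (G := ↥(B ⊔ Y)) _ _ hcardW hcop _ _
    hc1 hc2
  refine ⟨(g : G), fun y hy => ?_⟩
  have h1 : (⟨y, Subgroup.mem_sup_right hy⟩ : ↥(B ⊔ Y)) ∈ Y.subgroupOf (B ⊔ Y) :=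
    Subgroup.mem_subgroupOf.2 hy
  have h2 : g * ⟨y, Subgroup.mem_sup_right hy⟩ * g⁻¹ ∈
      MulAut.conj g • Y.subgroupOf (B ⊔ Y) := by
    have h3 := Subgroup.smul_mem_pointwise_smul _ (MulAut.conj g) _ h1
    simpa [MulAut.smul_def] using h3
  rw [hg] at h2
  exact (hY₁le (Subgroup.mem_subgroupOf.1 h2)).1

theorem exists_cj_le_of_coprime {X B L Y : Subgroup G} [Group.IsSolvable ↥X] (hBX : B ≤ X)
    (hBn : X ≤ Subgroup.normalizer (B : Set G)) (hLX : L ≤ X) (hXBL : X ≤ B ⊔ L) (hYX : Y ≤ X)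
    (hcop : (Nat.card Y).Coprime (Nat.card B)) : ∃ x ∈ X, cj x Y ≤ L := by
  have : (B.subgroupOf X).Normal := (Subgroup.normal_subgroupOf_iff_le_normalizer hBX).2 hBn
  have hsup : B.subgroupOf X ⊔ L.subgroupOf X = ⊤ := by
    rw [← Subgroup.subgroupOf_sup hBX hLX, Subgroup.subgroupOf_eq_top]
    exact hXBL
  have hcop' : (Nat.card (Y.subgroupOf X)).Coprime (Nat.card (B.subgroupOf X)) := by
    rw [Nat.card_congr (Subgroup.subgroupOfEquivOfLe hYX).toEquiv,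
      Nat.card_congr (Subgroup.subgroupOfEquivOfLe hBX).toEquiv]
    exact hcop
  obtain ⟨x, hx⟩ := p16h_aux (B.subgroupOf X) (L.subgroupOf X) (Y.subgroupOf X) hsup hcop'
  refine ⟨(x : G), x.2, ?_⟩
  intro z hz
  rw [mem_cj] at hz
  have h1 := hx ⟨(x : G)⁻¹ * z * (x : G), hYX hz⟩ (Subgroup.mem_subgroupOf.2 hz)
  have h2 := Subgroup.mem_subgroupOf.1 h1
  have h3 : ((x * ⟨(x : G)⁻¹ * z * (x : G), hYX hz⟩ * x⁻¹ : ↥X) : G) = z := by
    simp [mul_assoc]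
  rwa [h3] at h2

end Cfsg.Agent.Lib.Helper34.BG12
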