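import Mathlib
import Cfsg.Prelude.Def_Local
import Cfsg.Agent.Lib.Helper30.Cores

set_option autoImplicit false

namespace Cfsg.Agent.Lib.Helper34

open Cfsg

universe u

variable {G : Type u} [Group G]

theorem upperPSeries_zero (p : ℕ) : (upperPSeries p G 0).1 = ⊥ := rfl

theorem upperPSeries_succ_even (p n : ℕ) (hn : Even n) :
    (upperPSeries p G (n + 1)).1 =
      (pPrimeCore p (G ⧸ (upperPSeries p G n).1)).comap (QuotientGroup.mk' _) := by
  rw [upperPSeries]
  simp only [hn, if_true]

theorem upperPSeries_succ_odd (p n : ℕ) (hn : ¬ Even n) :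
    (upperPSeries p G (n + 1)).1 =
      (pCore p (G ⧸ (upperPSeries p G n).1)).comap (QuotientGroup.mk' _) := by
  rw [upperPSeries]
  simp only [hn, if_false]

theorem upperPSeries_le_succ (p n : ℕ) : (upperPSeries p G n).1 ≤ (upperPSeries p G (n + 1)).1 := by
  have key : ∀ N : Subgroup (G ⧸ (upperPSeries p G n).1),
      (upperPSeries p G n).1 ≤ N.comap (QuotientGroup.mk' _) := by
    intro N x hx
    rw [Subgroup.mem_comap]
    have : QuotientGroup.mk' (upperPSeries p G n).1 x = 1 := (QuotientGroup.eq_one_iff x).mpr hx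
    rw [this]
    exact one_mem _
  by_cases hn : Even n
  · rw [upperPSeries_succ_even p n hn]; exact key _
  · rw [upperPSeries_succ_odd p n hn]; exact key _

/-- `O_{p'}(G)` (first term of the upper `p`-series) has order prime to `p`. -/
theorem card_upperPSeries_one_coprime [Finite G] (p : ℕ) :
    (Nat.card (upperPSeries p G 1).1).Coprime p := by
  have h : (upperPSeries p G 1).1 =
      (pPrimeCore p (G ⧸ (upperPSeries p G 0).1)).comap (QuotientGroup.mk' _) :=
    upperPSeries_succ_even p 0 (by decide)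
  rw [h, Helper30.card_comap_mk']
  apply Nat.Coprime.mul_left
  · rw [upperPSeries_zero]; simp
  · exact Helper30.pPrimeCore_coprime p

/-- If `G` has `p`-length at most one, `K = O_{p'}(G)` and `S` is a Sylow `p`-subgroup, then
`G = K N_G(S)` (`K S = O_{p',p}(G)` is normal, then Frattini). -/
theorem plength_one_sup_normalizer [Finite G] (p : ℕ) [Fact p.Prime] (hpl : PLengthLE p 1 G)
    (S : Sylow p G) :
    (upperPSeries p G 1).1 ⊔ Subgroup.normalizer ((S : Subgroup G) : Set G) = ⊤ := by
  set K := (upperPSeries p G 1).1 with hK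
  set L := (upperPSeries p G 2).1 with hL
  have : L.Normal := (upperPSeries p G 2).2
  have hLdef : L = (pCore p (G ⧸ K)).comap (QuotientGroup.mk' K) :=
    upperPSeries_succ_odd p 1 (by decide)
  have h3 : (pPrimeCore p (G ⧸ L)).comap (QuotientGroup.mk' L) = ⊤ := by
    rw [← upperPSeries_succ_even p 2 (by decide)]; exact hpl
  have hKL : K ≤ L := upperPSeries_le_succ p 1
  have hindex : (Nat.card (G ⧸ L)).Coprime p := by
    have h4 : pPrimeCore p (G ⧸ L) = ⊤ := by
      apply Subgroup.comap_injective (QuotientGroup.mk'_surjective L)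
      rw [h3, Subgroup.comap_top]
    have h5 := Helper30.pPrimeCore_coprime (G := G ⧸ L) p
    rw [h4] at h5
    simpa [Subgroup.card_top] using h5
  have hSL : (S : Subgroup G) ≤ L := by
    intro x hx
    rw [← QuotientGroup.eq_one_iff (N := L)]
    obtain ⟨k, hk⟩ := (S.2 ⟨x, hx⟩)
    have hk' : x ^ p ^ k = 1 := by simpa using congrArg Subtype.val hk
    have h5 : ((x : G ⧸ L)) ^ p ^ k = 1 := by rw [← QuotientGroup.mk_pow, hk']; rfl
    have h6 : orderOf (x : G ⧸ L) ∣ p ^ k := orderOf_dvd_of_pow_eq_one h5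
    have h7 : orderOf (x : G ⧸ L) ∣ Nat.card (G ⧸ L) := orderOf_dvd_natCard _
    have h8 : orderOf (x : G ⧸ L) ∣ 1 := by
      have := Nat.dvd_gcd h6 h7
      rwa [Nat.Coprime.gcd_eq_one (Nat.Coprime.pow_left k hindex.symm)] at this
    exact orderOf_eq_one_iff.mp (Nat.dvd_one.mp h8)
  have hfr := Sylow.normalizer_sup_eq_top' S hSL
  have hLM : L ≤ K ⊔ (S : Subgroup G) := by
    rw [← Subgroup.relIndex_eq_one]
    have d1 : (K ⊔ (S : Subgroup G)).relIndex L ∣ (S : Subgroup G).relIndex L :=
      Subgroup.relIndex_dvd_of_le_left L le_sup_right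
    have d2 : (K ⊔ (S : Subgroup G)).relIndex L ∣ K.relIndex L :=
      Subgroup.relIndex_dvd_of_le_left L le_sup_left
    have c1 : ¬ p ∣ (S : Subgroup G).relIndex L := by
      intro h
      apply S.not_dvd_index
      rw [← Subgroup.relIndex_mul_index hSL]
      exact dvd_mul_of_dvd_left h _
    have c2 : ∃ k, K.relIndex L = p ^ k := by
      have e1 := Helper30.card_eq_card_mul_relIndex hKL
      have e2 : Nat.card L = Nat.card K * Nat.card (pCore p (G ⧸ K)) := by
        rw [hLdef]; exact Helper30.card_comap_mk' K _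
      obtain ⟨k, hk⟩ := IsPGroup.iff_card.mp (Helper30.pCore_isPGroup (G := G ⧸ K) p)
      refine ⟨k, ?_⟩
      rw [e1, hk] at e2
      exact Nat.eq_of_mul_eq_mul_left Nat.card_pos e2
    obtain ⟨k, hk⟩ := c2
    rw [hk] at d2
    obtain ⟨j, hj, hj2⟩ := (Nat.dvd_prime_pow Fact.out).mp d2
    rw [hj2] at d1 ⊢
    rcases Nat.eq_zero_or_pos j with h0 | h0
    · rw [h0, pow_zero]
    · exfalso; exact c1 (dvd_trans (dvd_pow_self p h0.ne') d1)
  rw [eq_top_iff, ← hfr]
  apply sup_le
  · exact le_sup_right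
  · exact hLM.trans (sup_le le_sup_left (Subgroup.le_normalizer.trans le_sup_right))

end Cfsg.Agent.Lib.Helper34
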