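import Mathlib
import Cfsg.Agent.Lib.Helper34.PLen
import Cfsg.Agent.Lib.Helper30.Coprime
import Cfsg.Prelude.Def_Transfer

set_option autoImplicit false

namespace Cfsg.Agent.Lib.Helper34

open Cfsg

universe u

variable {G : Type u} [Group G]

theorem upperPSeries_one_eq [Finite G] (p : ℕ) : (upperPSeries p G 1).1 = pPrimeCore p G := by
  apply le_antisymm
  · exact Helper30.le_pPrimeCore_of_normal (upperPSeries_normal p G 1)
      (card_upperPSeries_one_coprime p)
  · have h : (upperPSeries p G 1).1 =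
        (pPrimeCore p (G ⧸ (upperPSeries p G 0).1)).comap (QuotientGroup.mk' _) :=
      upperPSeries_succ_even p 0 (by decide)
    rw [h]
    intro x hx
    rw [Subgroup.mem_comap]
    have hle : (pPrimeCore p G).map (QuotientGroup.mk' (upperPSeries p G 0).1) ≤
        pPrimeCore p (G ⧸ (upperPSeries p G 0).1) := by
      apply Helper30.le_pPrimeCore_of_normal
      · exact Subgroup.Normal.map (inferInstance : (pPrimeCore p G).Normal) _
          (QuotientGroup.mk'_surjective _)
      · exact Nat.Coprime.coprime_dvd_left (Subgroup.card_map_dvd _ _)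
          (Helper30.pPrimeCore_coprime p)
    exact hle ⟨x, hx, rfl⟩

theorem pPrimeCore_quotient_eq_bot' [Finite G] (p : ℕ) (K : Subgroup G) [hKn : K.Normal]
    (h : K = pPrimeCore p G) : pPrimeCore p (G ⧸ K) = ⊥ := by
  subst h
  exact Helper30.pPrimeCore_quotient_eq_bot p

/-- in a group of `p`-length `≤ 1`, the `p`-elements of `G / O_{p'}(G)` lie in `O_p`. -/
theorem plength_one_mem_pCore [Finite G] (p : ℕ) [Fact p.Prime] (hpl : PLengthLE p 1 G)
    (x : G) (k : ℕ) (hx : x ^ (p ^ k) ∈ (upperPSeries p G 1).1) :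
    QuotientGroup.mk' (upperPSeries p G 1).1 x ∈ pCore p (G ⧸ (upperPSeries p G 1).1) := by
  set K := (upperPSeries p G 1).1 with hK
  set L := (upperPSeries p G 2).1 with hL
  have : L.Normal := (upperPSeries p G 2).2
  have hLdef : L = (pCore p (G ⧸ K)).comap (QuotientGroup.mk' K) :=
    upperPSeries_succ_odd p 1 (by decide)
  have h3 : (pPrimeCore p (G ⧸ L)).comap (QuotientGroup.mk' L) = ⊤ := by
    rw [← upperPSeries_succ_even p 2 (by decide)]; exact hpl
  have hKL : K ≤ L := upperPSeries_le_succ p 1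
  have hindex : (Nat.card (G ⧸ L)).Coprime p := by
    have h4 : pPrimeCore p (G ⧸ L) = ⊤ := by
      apply Subgroup.comap_injective (QuotientGroup.mk'_surjective L)
      rw [h3, Subgroup.comap_top]
    have h5 := Helper30.pPrimeCore_coprime (G := G ⧸ L) p
    rw [h4] at h5
    simpa [Subgroup.card_top] using h5
  have hxL : x ∈ L := by
    rw [← QuotientGroup.eq_one_iff (N := L)]
    have h5 : ((x : G ⧸ L)) ^ p ^ k = 1 := by
      rw [← QuotientGroup.mk_pow]
      exact (QuotientGroup.eq_one_iff _).mpr (hKL hx)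
    have h6 : orderOf (x : G ⧸ L) ∣ p ^ k := orderOf_dvd_of_pow_eq_one h5
    have h7 : orderOf (x : G ⧸ L) ∣ Nat.card (G ⧸ L) := orderOf_dvd_natCard _
    have h8 : orderOf (x : G ⧸ L) ∣ 1 := by
      have := Nat.dvd_gcd h6 h7
      rwa [Nat.Coprime.gcd_eq_one (Nat.Coprime.pow_left k hindex.symm)] at this
    exact orderOf_eq_one_iff.mp (Nat.dvd_one.mp h8)
  rw [hLdef] at hxL
  exact hxL

/-- lifting elements of order `p` centralizing the image of a maximal elementary abelian
subgroup `E` modulo a normal `p'`-subgroup `K`. -/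
theorem lift_mem_of_max_elementary [Finite G] (p : ℕ) [Fact p.Prime] (K : Subgroup G) [K.Normal]
    (hK : (Nat.card K).Coprime p) (E : Subgroup G) (hEc : IsMulCommutative E)
    (hEp : ∀ a ∈ E, a ^ p = 1)
    (hEmax : ∀ B : Subgroup G, IsElementaryAbelian p B → E ≤ B → B = E)
    (q : G ⧸ K) (hq : q ^ p = 1) (hqE : ∀ e ∈ E, Commute q (QuotientGroup.mk' K e)) :
    q ∈ E.map (QuotientGroup.mk' K) := by
  obtain ⟨x, rfl⟩ := QuotientGroup.mk'_surjective K q
  have hEpg : IsPGroup p E := by
    rintro ⟨e, he⟩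
    exact ⟨1, Subtype.ext (by simpa using hEp e he)⟩
  have hstab : ∀ a ∈ E, x⁻¹ * (a * x * a⁻¹) ∈ K := by
    intro a ha
    rw [← QuotientGroup.eq_one_iff (N := K)]
    show QuotientGroup.mk' K (x⁻¹ * (a * x * a⁻¹)) = 1
    rw [map_mul, map_mul, map_mul, map_inv, map_inv]
    have h1 := (hqE a ha).eq
    rw [← h1]; group
  have hEK : E ≤ Subgroup.normalizer (K : Set G) := by
    rw [Subgroup.normalizer_eq_top_iff.mpr inferInstance]
    exact le_top
  have hKp : ¬ p ∣ Nat.card K := (Nat.Prime.coprime_iff_not_dvd Fact.out).mp hK.symm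
  obtain ⟨n, hn, hfix⟩ := Helper30.coset_fixed p hEpg hEK hKp x hstab
  have hx'π : QuotientGroup.mk' K (x * n) = QuotientGroup.mk' K x := by
    have h1 : QuotientGroup.mk' K n = 1 := (QuotientGroup.eq_one_iff n).mpr hn
    rw [map_mul, h1, mul_one]
  have hx'p : (x * n) ^ p ∈ K := by
    rw [← QuotientGroup.eq_one_iff (N := K)]
    show QuotientGroup.mk' K ((x * n) ^ p) = 1
    rw [map_pow, hx'π, hq]
  obtain ⟨u, -, hu⟩ := Nat.exists_mul_mod_eq_one_of_coprime hK (Fact.out : p.Prime).one_lt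
  have hx''p : ((x * n) ^ (Nat.card K * u)) ^ p = 1 := by
    have h1 : ((x * n) ^ p) ^ Nat.card K = 1 := by
      have h2 := pow_card_eq_one' (G := ↥K) (x := ⟨(x * n) ^ p, hx'p⟩)
      have h3 : (((⟨(x * n) ^ p, hx'p⟩ : ↥K) ^ Nat.card K : ↥K) : G) = ((1 : ↥K) : G) :=
        congrArg Subtype.val h2
      rw [Subgroup.coe_pow, Subgroup.coe_one] at h3
      exact h3
    rw [← pow_mul, mul_comm (Nat.card K * u) p, ← mul_assoc, pow_mul, pow_mul, h1, one_pow]
  have hx''π : QuotientGroup.mk' K ((x * n) ^ (Nat.card K * u)) = QuotientGroup.mk' K x := by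
    rw [map_pow, hx'π]
    conv_lhs => rw [← Nat.div_add_mod (Nat.card K * u) p, pow_add, pow_mul, hq, one_pow, one_mul,
      hu, pow_one]
  have hx''E : ∀ e ∈ E, e * (x * n) ^ (Nat.card K * u) = (x * n) ^ (Nat.card K * u) * e := by
    intro e he
    have h1 : e * (x * n) * e⁻¹ = x * n := hfix e he
    have h2 : Commute e (x * n) := by
      show e * (x * n) = (x * n) * e
      calc e * (x * n) = (e * (x * n) * e⁻¹) * e := by group
        _ = (x * n) * e := by rw [h1]
    exact (h2.pow_right _).eq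
  generalize (x * n) ^ (Nat.card K * u) = z at hx''p hx''π hx''E
  have hcomm : ∀ a ∈ (E : Set G) ∪ {z}, ∀ b ∈ (E : Set G) ∪ {z}, a * b = b * a := by
    intro a ha b hb
    rcases ha with ha | ha <;> rcases hb with hb | hb
    · exact congrArg Subtype.val (hEc.is_comm.comm ⟨a, ha⟩ ⟨b, hb⟩)
    · rw [Set.mem_singleton_iff] at hb; rw [hb]; exact hx''E a ha
    · rw [Set.mem_singleton_iff] at ha; rw [ha]; exact (hx''E b hb).symm
    · rw [Set.mem_singleton_iff] at ha hb; rw [ha, hb]
  have hBc : IsMulCommutative (Subgroup.closure ((E : Set G) ∪ {z})) :=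
    Subgroup.isMulCommutative_closure hcomm
  have hBp : ∀ b ∈ Subgroup.closure ((E : Set G) ∪ {z}), b ^ p = 1 := by
    intro b hb
    induction hb using Subgroup.closure_induction with
    | mem w hw =>
      rcases hw with hw | hw
      · exact hEp w hw
      · rw [Set.mem_singleton_iff] at hw; rw [hw]; exact hx''p
    | one => exact one_pow _
    | mul a b ha hb iha ihb =>
      have hab : Commute a b := congrArg Subtype.val (hBc.is_comm.comm ⟨a, ha⟩ ⟨b, hb⟩)
      rw [hab.mul_pow, iha, ihb, one_mul]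
    | inv a ha iha => rw [inv_pow, iha, inv_one]
  have hEB : E ≤ Subgroup.closure ((E : Set G) ∪ {z}) :=
    fun e he => Subgroup.subset_closure (Or.inl he)
  have hBE := hEmax _ ⟨hBc, hBp⟩ hEB
  have hzmem : z ∈ E := by
    rw [← hBE]; exact Subgroup.subset_closure (Or.inr rfl)
  exact ⟨z, hzmem, hx''π⟩

end Cfsg.Agent.Lib.Helper34
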