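import Mathlib
import Cfsg.Agent.Lib.Helper81.AQDefs

/-!
# Project AQ (S3911, helper81), piece CARD0 (backup copy by helper34)

If `L' ⊔ M = L` with `M` normal of order prime to `p`, then `L'` and `L` have the same `p`-part.
-/

set_option autoImplicit false

namespace Cfsg.Agent.Lib.Helper81.AQ

variable {G : Type*} [Group G]

-- piece CARD0
theorem val_eq_of_not_dvd [Finite G] (M : Subgroup G) [M.Normal] (L L' : Subgroup G)
    (hML : M ≤ L) (hL' : L' ≤ L) (hsup : L' ⊔ M = L) (p : ℕ) [Fact p.Prime]
    (hpM : ¬ p ∣ Nat.card M) :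
    (Nat.card L').factorization p = (Nat.card L).factorization p := by
  have h1 : Nat.card M * M.relIndex L = Nat.card L := by
    have h := Subgroup.relIndex_mul_relIndex ⊥ M L bot_le hML
    rwa [Subgroup.relIndex_bot_left, Subgroup.relIndex_bot_left] at h
  have h2 : Nat.card ↥(M ⊓ L') * (M ⊓ L').relIndex L' = Nat.card L' := by
    have h := Subgroup.relIndex_mul_relIndex ⊥ (M ⊓ L') L' bot_le inf_le_right
    rwa [Subgroup.relIndex_bot_left, Subgroup.relIndex_bot_left] at h
  have h3 : M.relIndex L = (M ⊓ L').relIndex L' := by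
    rw [← hsup, Subgroup.relIndex_sup_right, Subgroup.inf_relIndex_right]
  have hpI : ¬ p ∣ Nat.card ↥(M ⊓ L') :=
    fun h => hpM (h.trans (Subgroup.card_dvd_of_le inf_le_left))
  have hL0 : Nat.card L ≠ 0 := Nat.card_pos.ne'
  have hM0 : Nat.card M ≠ 0 := Nat.card_pos.ne'
  have hI0 : Nat.card ↥(M ⊓ L') ≠ 0 := Nat.card_pos.ne'
  have hr0 : M.relIndex L ≠ 0 := by
    intro h
    rw [h, mul_zero] at h1
    exact hL0 h1.symm
  have e1 : (Nat.card L).factorization p = (M.relIndex L).factorization p := by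
    rw [← h1, Nat.factorization_mul hM0 hr0, Finsupp.add_apply,
      Nat.factorization_eq_zero_of_not_dvd hpM, zero_add]
  have e2 : (Nat.card L').factorization p = (M.relIndex L).factorization p := by
    rw [← h2, ← h3, Nat.factorization_mul hI0 hr0, Finsupp.add_apply,
      Nat.factorization_eq_zero_of_not_dvd hpI, zero_add]
  rw [e1, e2]

end Cfsg.Agent.Lib.Helper81.AQ
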