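import Mathlib
import Cfsg.Agent.Lib.Helper81.AQDefs

/-!
# Project AQ (S3911, helper81), piece NC0 (helper34)

An element of `L'` normalising a `p`-subgroup `Z ≤ L'` centralises it when `L / M` is abelian and
`p` does not divide the order of `M`: the commutators lie in `Z ⊓ M = ⊥`.
-/

set_option autoImplicit false

namespace Cfsg.Agent.Lib.Helper81.AQ

variable {G : Type*} [Group G]

-- piece NC0
theorem central_of_not_dvd [Finite G] (M : Subgroup G) [M.Normal] (L L' Z : Subgroup G)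
    (hab : AbMod L M) (hL' : L' ≤ L) (hZ : Z ≤ L') (p : ℕ) [Fact p.Prime] (hZp : IsPGroup p Z)
    (hpM : ¬ p ∣ Nat.card M) (g : G) (hg : g ∈ L') (hn : Nrm Z g) :
    ∀ z ∈ Z, g * z = z * g := by
  intro z hz
  have hp : p.Prime := Fact.out
  have hcM : g * z * g⁻¹ * z⁻¹ ∈ M := hab g (hL' hg) z (hL' (hZ hz))
  have hcZ : g * z * g⁻¹ * z⁻¹ ∈ Z := Z.mul_mem ((hn z).1 hz) (Z.inv_mem hz)
  obtain ⟨k, hk⟩ := hZp ⟨g * z * g⁻¹ * z⁻¹, hcZ⟩
  have hk' : (g * z * g⁻¹ * z⁻¹) ^ (p ^ k) = 1 := by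
    have h := congrArg Subtype.val hk
    simpa using h
  have hd1 : orderOf (g * z * g⁻¹ * z⁻¹) ∣ p ^ k := orderOf_dvd_of_pow_eq_one hk'
  have hd2 : orderOf (g * z * g⁻¹ * z⁻¹) ∣ Nat.card M := Subgroup.orderOf_dvd_natCard M hcM
  obtain ⟨j, -, hj⟩ := (Nat.dvd_prime_pow hp).mp hd1
  have hj0 : j = 0 := by
    by_contra hne
    apply hpM
    have h : p ∣ orderOf (g * z * g⁻¹ * z⁻¹) := by
      rw [hj]
      exact dvd_pow_self p hne
    exact h.trans hd2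
  have h1 : g * z * g⁻¹ * z⁻¹ = 1 := by
    rw [← orderOf_eq_one_iff, hj, hj0, pow_zero]
  have h2 : g * z * g⁻¹ = z := mul_inv_eq_one.mp h1
  calc g * z = g * z * g⁻¹ * g := by group
    _ = z * g := by rw [h2]

end Cfsg.Agent.Lib.Helper81.AQ
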