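import Cfsg.Agent.Lib.Helper3.BG12Pieces

/-!
# B&G Section 12, piece Q20C (helper34 for helper3): the primes of a complement `E` of `M_σ` are
not in `σ(M)`, and `E` contains an elementary abelian `p²` for `p ∈ τ₂(M)`.
-/

set_option autoImplicit false

open Cfsg Cfsg.Agent.Lib.Helper32 Cfsg.Agent.Lib.Helper32.BG10 Cfsg.Agent.Lib.Helper3.BG12
  Cfsg.Agent.Lib.Helper3.BG12S

namespace Cfsg.Agent.Lib.Helper34.BG12

universe u

variable {G : Type u} [Group G] [Finite G]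

theorem not_mem_sigma_of_dvd_compl (hG : IsMinSimpleOddOrder G) {M : Subgroup G} (hM : IsCoatom M)
    {E : Subgroup G} (hE : IsComplIn E (sigmaCore M) M) {p : ℕ} (hp : p.Prime)
    (h : p ∣ Nat.card E) : p ∉ sigma M := by
  intro hpσ
  have hfp : Fact p.Prime := ⟨hp⟩
  obtain ⟨Q, hQ⟩ := sylSet_nonempty p M
  have hQle : Q ≤ sigmaCore M :=
    Cfsg.Agent.Lib.Helper3.BG12S.pgroup_le_sigmaCore hG hM hpσ (isPGroup_of_mem_sylSet hQ) hQ.1
  have hpM : p ∣ Nat.card M := hpσ.2.1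
  have hQcard : p ∣ Nat.card Q := by
    rw [hQ.2]
    exact dvd_pow_self p (hp.factorization_pos_of_dvd Nat.card_pos.ne' hpM).ne'
  have h1 : p ∣ Nat.card (sigmaCore M) := hQcard.trans (Subgroup.card_dvd_of_le hQle)
  have hcop := Cfsg.Agent.Lib.Helper3.BG12S.sigmaCore_coprime hG hM hE
  exact (Nat.Prime.not_coprime_iff_dvd.mpr ⟨p, hp, h1, h⟩) hcop

theorem exists_tau2_elemAb (hG : IsMinSimpleOddOrder G) {M : Subgroup G}
    (hM : IsCoatom M) {E : Subgroup G} (hE : IsComplIn E (sigmaCore M) M) {p : ℕ} [Fact p.Prime]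
    (hp : p ∈ tau2 M) :
    ∃ A : Subgroup G, A ≤ E ∧ IsElementaryAbelian p A ∧ Nat.card A = p ^ 2 := by
  have hpp : p.Prime := hp.1
  have hcard : Nat.card M = Nat.card E * Nat.card (sigmaCore M) :=
    Cfsg.Agent.Lib.Helper8.BG10.q12c_card_of_complIn hE
  have hnd : ¬ p ∣ Nat.card (sigmaCore M) := fun h =>
    hp.2.1 (Cfsg.Agent.Lib.Helper3.BG12S.mem_sigma_of_dvd_sigmaCore hpp h)
  have hfac : (Nat.card E).factorization p = (Nat.card M).factorization p := by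
    rw [hcard, Nat.factorization_mul Nat.card_pos.ne' Nat.card_pos.ne', Finsupp.add_apply,
      Nat.factorization_eq_zero_of_not_dvd hnd, add_zero]
  obtain ⟨S₁, hS₁⟩ := sylSet_nonempty p E
  have hS₁M : S₁ ∈ sylSet p M := ⟨hS₁.1.trans hE.1, by rw [hS₁.2, hfac]⟩
  obtain ⟨A, hAS, hA, hAc⟩ :=
    Cfsg.Agent.Lib.Helper3.BG12S.exists_elemAb2_le_sylSet hp.2.2.2 hS₁M
  exact ⟨A, hAS.trans hS₁.1, hA, hAc⟩

end Cfsg.Agent.Lib.Helper34.BG12
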