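import Mathlib
import Cfsg.Agent.Lib.Helper10.BT0

/-!
# S4700 (Brauer–Reynolds Theorem 1), piece BT-K5 `rank_count` (project of helper10, proof by
helper34)
-/

set_option autoImplicit false

namespace Cfsg.Agent.Lib.Helper10.BT

open Cfsg
open Cfsg.Agent.Lib.Helper83 (trivIrr)
open Cfsg.Agent.Lib.Helper10.BR (psum DOut Tab)
open scoped ComplexConjugate

/-- BT-K5 -/
theorem rank_count {G : Type*} [Group G] [Fintype G] {p e t n : ℕ} {P : Subgroup G} {ε : ℤ}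
    {x₀ : ℕ} {A B Y D : Finset (IrrCharacter G)} (h : GTab G p e t n P ε x₀ A B Y D)
    (hx : n < x₀)
    (hsq : ∑ ψ ∈ D, (ψ : G → ℂ) 1 * (ψ : G → ℂ) 1 = ((n * p ^ 2 : ℕ) : ℂ))
    [Fintype (IrrCharacter G)] (c : IrrCharacter G → ℕ)
    (hc : ∀ ψ : IrrCharacter G, psum (Subgroup.normalizer (P : Set G)) (ψ : G → ℂ) 1 =
      (Nat.card (Subgroup.normalizer (P : Set G)) : ℂ) * (c ψ : ℂ))
    (hK2 : ∑ ψ : IrrCharacter G,
      psum (Subgroup.normalizer (P : Set G)) (ψ : G → ℂ) 1 * (ψ : G → ℂ) 1 = (Nat.card G : ℂ))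
    (hK4 : ∀ ψ : IrrCharacter G,
      ‖psum (Subgroup.normalizer (P : Set G)) (ψ : G → ℂ) 1‖ * (Nat.card P : ℝ) ≤
        (psum P (ψ : G → ℂ) 1).re * (Nat.card (Subgroup.normalizer (P : Set G)) : ℝ)) :
    ∑ ψ : IrrCharacter G, c ψ ^ 2 = n + 1 := by
  classical
  have hp := h.hp
  have hppos : 0 < p := hp.pos
  have hNcard : Nat.card (Subgroup.normalizer (P : Set G)) = e * p := h.cardN
  have hNpos : 0 < Nat.card (Subgroup.normalizer (P : Set G)) := Nat.card_pos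
  have hPcard : Nat.card P = p := h.cardP
  have hepos : 0 < e := by have := h.he; omega
  have hep : e < p := by
    have h1 := h.het
    have h2 := h.ht
    have h3 : e * 1 ≤ e * t := Nat.mul_le_mul_left e h2
    omega
  have : Fintype P := Fintype.ofFinite P
  have : Fintype (Subgroup.normalizer (P : Set G)) := Fintype.ofFinite _
  -- (1) the trivial character
  have hctriv : c (trivIrr G) = 1 := by
    have h1 := hc (trivIrr G)
    rw [Cfsg.Agent.Lib.Helper10.BR.psum_eq_sum] at h1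
    simp only [Cfsg.Agent.Lib.Helper83.trivIrr_apply, Finset.sum_const, Finset.card_univ,
      nsmul_eq_mul, mul_one] at h1
    rw [← Nat.card_eq_fintype_card] at h1
    have h2 : (Nat.card (Subgroup.normalizer (P : Set G)) : ℂ) ≠ 0 := by
      exact_mod_cast hNpos.ne'
    have h3 : (c (trivIrr G) : ℂ) = 1 := mul_left_cancel₀ h2 (by rw [← h1, mul_one])
    exact_mod_cast h3
  -- (2) the key inequality
  have hle : ∀ ψ : IrrCharacter G, (c ψ : ℝ) * p ≤ (psum P (ψ : G → ℂ) 1).re := by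
    intro ψ
    have h1 := hK4 ψ
    rw [hc ψ, hPcard] at h1
    have h2 : ‖(Nat.card (Subgroup.normalizer (P : Set G)) : ℂ) * (c ψ : ℂ)‖ =
        (Nat.card (Subgroup.normalizer (P : Set G)) : ℝ) * (c ψ : ℝ) := by
      rw [norm_mul, Complex.norm_natCast, Complex.norm_natCast]
    rw [h2] at h1
    have h3 : (0 : ℝ) < Nat.card (Subgroup.normalizer (P : Set G)) := by exact_mod_cast hNpos
    refine le_of_mul_le_mul_right ?_ h3
    calc (c ψ : ℝ) * p * (Nat.card (Subgroup.normalizer (P : Set G)) : ℝ)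
        = (Nat.card (Subgroup.normalizer (P : Set G)) : ℝ) * (c ψ : ℝ) * p := by ring
      _ ≤ _ := h1
  -- (3) `psum P f 1` for a function constant on `P \ {1}`
  have hps : ∀ (f : G → ℂ) (v : ℂ), (∀ x ∈ P, x ≠ 1 → f x = v) →
      psum P f 1 = f 1 + ((p : ℂ) - 1) * v := by
    intro f v hf
    rw [Cfsg.Agent.Lib.Helper10.BR.psum_eq_sum,
      ← Finset.add_sum_erase Finset.univ _ (Finset.mem_univ (1 : P))]
    simp only [one_mul, OneMemClass.coe_one]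
    congr 1
    have hrest : ∑ u ∈ Finset.univ.erase (1 : P), f (u : G) =
        ∑ _u ∈ Finset.univ.erase (1 : P), v := by
      apply Finset.sum_congr rfl
      intro u hu
      apply hf u u.2
      intro h'
      exact (Finset.ne_of_mem_erase hu) (Subtype.ext h')
    rw [hrest, Finset.sum_const, Finset.card_erase_of_mem (Finset.mem_univ _), Finset.card_univ,
      ← Nat.card_eq_fintype_card, hPcard, nsmul_eq_mul, Nat.cast_sub hp.pos, Nat.cast_one]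
  -- (4) `c = 0` on `B`
  have hcB : ∀ χ ∈ B, c χ = 0 := by
    intro χ hχ
    have h1 := hle χ
    rw [hps (χ : G → ℂ) (-1) (h.valB χ hχ), h.degB χ hχ, Nat.cast_sub hp.pos, Nat.cast_one] at h1
    have h2 : (((p : ℂ) - 1) + ((p : ℂ) - 1) * (-1)).re = 0 := by
      simp
    rw [h2] at h1
    have h3 : (0 : ℝ) < p := by exact_mod_cast hppos
    have h4 : (c χ : ℝ) ≤ 0 := by
      by_contra h5
      push Not at h5
      have := mul_pos h5 h3
      linarith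
    have h5 : (c χ : ℝ) = 0 := le_antisymm h4 (Nat.cast_nonneg _)
    exact_mod_cast h5
  -- (5) the numbers `k` on `D`
  obtain ⟨kf, hkf⟩ : ∃ kf : IrrCharacter G → ℕ, ∀ ψ ∈ D, (ψ : G → ℂ) 1 = ((p * kf ψ : ℕ) : ℂ) := by
    refine ⟨fun ψ => if hψ : ψ ∈ D then Classical.choose (h.degD ψ hψ) else 0, ?_⟩
    intro ψ hψ
    simp only [dif_pos hψ]
    exact Classical.choose_spec (h.degD ψ hψ)
  have hcD : ∀ ψ ∈ D, c ψ ≤ kf ψ := by
    intro ψ hψ
    have h1 := hle ψ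
    rw [hps (ψ : G → ℂ) 0 (h.valD ψ hψ), hkf ψ hψ, mul_zero, add_zero] at h1
    have h2 : (((p * kf ψ : ℕ) : ℂ)).re = ((p * kf ψ : ℕ) : ℝ) := Complex.natCast_re _
    rw [h2] at h1
    have h3 : c ψ * p ≤ p * kf ψ := by exact_mod_cast h1
    have h4 : p * c ψ ≤ p * kf ψ := by rw [mul_comm p (c ψ)]; exact h3
    exact Nat.le_of_mul_le_mul_left h4 hppos
  -- (6) the degree equation in `ℕ`
  have hK2' := hK2
  rw [h.sum_split] at hK2'
  simp only [hc] at hK2'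
  rw [Cfsg.Agent.Lib.Helper83.trivIrr_apply,
    Finset.sum_congr rfl (fun χ hχ => by rw [h.degA χ hχ] :
      ∀ χ ∈ A, (Nat.card (Subgroup.normalizer (P : Set G)) : ℂ) * (c χ : ℂ) * (χ : G → ℂ) 1 =
        (Nat.card (Subgroup.normalizer (P : Set G)) : ℂ) * (c χ : ℂ) * ((1 + n * p : ℕ) : ℂ)),
    Finset.sum_congr rfl (fun χ hχ => by rw [hcB χ hχ]; simp :
      ∀ χ ∈ B, (Nat.card (Subgroup.normalizer (P : Set G)) : ℂ) * (c χ : ℂ) * (χ : G → ℂ) 1 =
        ((0 : ℕ) : ℂ)),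
    Finset.sum_congr rfl (fun χ hχ => by rw [h.degY χ hχ] :
      ∀ χ ∈ Y, (Nat.card (Subgroup.normalizer (P : Set G)) : ℂ) * (c χ : ℂ) * (χ : G → ℂ) 1 =
        (Nat.card (Subgroup.normalizer (P : Set G)) : ℂ) * (c χ : ℂ) * ((x₀ : ℕ) : ℂ)),
    Finset.sum_congr rfl (fun χ hχ => by rw [hkf χ hχ] :
      ∀ χ ∈ D, (Nat.card (Subgroup.normalizer (P : Set G)) : ℂ) * (c χ : ℂ) * (χ : G → ℂ) 1 =
        (Nat.card (Subgroup.normalizer (P : Set G)) : ℂ) * (c χ : ℂ) * ((p * kf χ : ℕ) : ℂ))]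
    at hK2'
  have hK2n : Nat.card (Subgroup.normalizer (P : Set G)) * c (trivIrr G) * 1 +
      ∑ χ ∈ A, Nat.card (Subgroup.normalizer (P : Set G)) * c χ * (1 + n * p) +
      ∑ _χ ∈ B, 0 +
      ∑ χ ∈ Y, Nat.card (Subgroup.normalizer (P : Set G)) * c χ * x₀ +
      ∑ χ ∈ D, Nat.card (Subgroup.normalizer (P : Set G)) * c χ * (p * kf χ) = Nat.card G := by
    exact_mod_cast hK2'
  rw [hNcard, h.cardG, hctriv, Finset.sum_const_zero] at hK2n
  have hSA : ∑ χ ∈ A, e * p * c χ * (1 + n * p) = e * p * ((1 + n * p) * ∑ χ ∈ A, c χ) := by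
    rw [Finset.mul_sum, Finset.mul_sum]
    exact Finset.sum_congr rfl (fun χ _ => by ring)
  have hSY : ∑ χ ∈ Y, e * p * c χ * x₀ = e * p * (x₀ * ∑ χ ∈ Y, c χ) := by
    rw [Finset.mul_sum, Finset.mul_sum]
    exact Finset.sum_congr rfl (fun χ _ => by ring)
  have hSD : ∑ χ ∈ D, e * p * c χ * (p * kf χ) = e * p * (p * ∑ χ ∈ D, c χ * kf χ) := by
    rw [Finset.mul_sum, Finset.mul_sum]
    exact Finset.sum_congr rfl (fun χ _ => by ring)
  rw [hSA, hSY, hSD] at hK2n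
  have hE : 1 + (1 + n * p) * ∑ χ ∈ A, c χ + x₀ * ∑ χ ∈ Y, c χ + p * ∑ χ ∈ D, c χ * kf χ
      = 1 + n * p := by
    have hepp : 0 < e * p := Nat.mul_pos hepos hppos
    apply Nat.eq_of_mul_eq_mul_left hepp
    calc e * p * (1 + (1 + n * p) * ∑ χ ∈ A, c χ + x₀ * ∑ χ ∈ Y, c χ + p * ∑ χ ∈ D, c χ * kf χ)
        = e * p * 1 * 1 + e * p * ((1 + n * p) * ∑ χ ∈ A, c χ) + 0 +
          e * p * (x₀ * ∑ χ ∈ Y, c χ) + e * p * (p * ∑ χ ∈ D, c χ * kf χ) := by ring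
      _ = (1 + n * p) * (e * p) := hK2n
      _ = e * p * (1 + n * p) := by ring
  -- (7) `∑_A c = 0`
  have hA0 : ∑ χ ∈ A, c χ = 0 := by
    by_contra hne
    have h1 : 1 ≤ ∑ χ ∈ A, c χ := Nat.one_le_iff_ne_zero.mpr hne
    have h2 : (1 + n * p) * 1 ≤ (1 + n * p) * ∑ χ ∈ A, c χ := Nat.mul_le_mul_left _ h1
    omega
  rw [hA0, mul_zero, add_zero] at hE
  -- (8) `∑_Y c = 0`
  have hpx : ¬ p ∣ x₀ := by
    intro hdvd
    have h1 : (p : ℤ) ∣ ε * (e : ℤ) - (x₀ : ℤ) := h.modY.dvd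
    have h2 : (p : ℤ) ∣ (x₀ : ℤ) := by exact_mod_cast hdvd
    have h3 : (p : ℤ) ∣ ε * (e : ℤ) := by
      have := dvd_add h1 h2
      simpa using this
    have h4 : (p : ℤ) ∣ (e : ℤ) := by
      rcases h.hε with h5 | h5
      · rw [h5, one_mul] at h3; exact h3
      · rw [h5, neg_one_mul] at h3; exact (dvd_neg).mp h3
    have h5 : p ∣ e := by exact_mod_cast h4
    have := Nat.le_of_dvd hepos h5
    omega
  have hY0 : ∑ χ ∈ Y, c χ = 0 := by
    have h1 : p ∣ x₀ * ∑ χ ∈ Y, c χ := by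
      have h2 : p ∣ x₀ * ∑ χ ∈ Y, c χ + p * ∑ χ ∈ D, c χ * kf χ := by
        have h3 : x₀ * ∑ χ ∈ Y, c χ + p * ∑ χ ∈ D, c χ * kf χ = n * p := by omega
        rw [h3]; exact dvd_mul_left p n
      exact (Nat.dvd_add_left (dvd_mul_right p _)).mp h2
    have h2 : p ∣ ∑ χ ∈ Y, c χ := (hp.dvd_mul.mp h1).resolve_left hpx
    by_contra hne
    have h3 : p ≤ ∑ χ ∈ Y, c χ := Nat.le_of_dvd (Nat.pos_of_ne_zero hne) h2
    have h4 : x₀ * p ≤ x₀ * ∑ χ ∈ Y, c χ := Nat.mul_le_mul_left _ h3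
    have h5 : (n + 1) * p ≤ x₀ * p := Nat.mul_le_mul_right _ hx
    have h6 : (n + 1) * p = n * p + p := by ring
    omega
  rw [hY0, mul_zero, add_zero] at hE
  -- (9) `∑_D c k = n`
  have hDn : ∑ χ ∈ D, c χ * kf χ = n := by
    have h1 : p * ∑ χ ∈ D, c χ * kf χ = p * n := by
      rw [mul_comm p n]; omega
    exact Nat.eq_of_mul_eq_mul_left hppos h1
  -- (10) `∑_D k² = n`
  have hDk : ∑ χ ∈ D, kf χ * kf χ = n := by
    have h1 := hsq
    rw [Finset.sum_congr rfl (fun χ hχ => by rw [hkf χ hχ] :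
      ∀ χ ∈ D, (χ : G → ℂ) 1 * (χ : G → ℂ) 1 = ((p * kf χ : ℕ) : ℂ) * ((p * kf χ : ℕ) : ℂ))] at h1
    have h2 : ∑ χ ∈ D, (p * kf χ) * (p * kf χ) = n * p ^ 2 := by exact_mod_cast h1
    have h3 : ∑ χ ∈ D, (p * kf χ) * (p * kf χ) = p ^ 2 * ∑ χ ∈ D, kf χ * kf χ := by
      rw [Finset.mul_sum]
      exact Finset.sum_congr rfl (fun χ _ => by ring)
    rw [h3, mul_comm n (p ^ 2)] at h2
    exact Nat.eq_of_mul_eq_mul_left (by positivity) h2
  -- (11) `c = k` on `D`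
  have hcD' : ∀ ψ ∈ D, c ψ = kf ψ := by
    have h1 : ∀ ψ ∈ D, c ψ * kf ψ ≤ kf ψ * kf ψ :=
      fun ψ hψ => Nat.mul_le_mul_right _ (hcD ψ hψ)
    have h2 := (Finset.sum_eq_sum_iff_of_le h1).mp (by rw [hDn, hDk])
    intro ψ hψ
    have h3 := h2 ψ hψ
    rcases Nat.eq_zero_or_pos (kf ψ) with h0 | hpos
    · have := hcD ψ hψ
      omega
    · exact Nat.eq_of_mul_eq_mul_right hpos h3
  -- (12) conclusion
  rw [h.sum_split, hctriv]
  have hA' : ∑ ψ ∈ A, c ψ ^ 2 = 0 := by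
    apply Finset.sum_eq_zero
    intro χ hχ
    rw [(Finset.sum_eq_zero_iff.mp hA0) χ hχ]
    rfl
  have hB' : ∑ ψ ∈ B, c ψ ^ 2 = 0 := by
    apply Finset.sum_eq_zero
    intro χ hχ
    rw [hcB χ hχ]
    rfl
  have hY' : ∑ ψ ∈ Y, c ψ ^ 2 = 0 := by
    apply Finset.sum_eq_zero
    intro χ hχ
    rw [(Finset.sum_eq_zero_iff.mp hY0) χ hχ]
    rfl
  have hD' : ∑ ψ ∈ D, c ψ ^ 2 = n := by
    rw [← hDk]
    apply Finset.sum_congr rfl
    intro χ hχ
    rw [hcD' χ hχ, pow_two]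
  rw [hA', hB', hY', hD']
  ring

end Cfsg.Agent.Lib.Helper10.BT
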