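import Mathlib
import Cfsg.Agent.Lib.Helper4.FCDefs

/-!
Project FC (S4146, helper4), piece SPLIT (helper34): in a semidirect product `G = N ⋊ H` the
centralizer of `x ∈ H` is `C_N(x) C_H(x)`, so the class size of `x` is
`|N : C_N(x)| * |H : C_H(x)|`.
-/

set_option autoImplicit false

namespace Cfsg.Agent.Lib.Helper4.FC

universe u

theorem split_helper34_key {G : Type u} [Group G] (N H : Subgroup G) (x : G) (hN : N.Normal)
    (hNH : N ⊓ H = ⊥) (hx : x ∈ H) (n h : G) (hn : n ∈ N) (hh : h ∈ H)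
    (hc : x * (n * h) = n * h * x) : x * n = n * x ∧ x * h = h * x := by
  have htriv : ∀ g : G, g ∈ N → g ∈ H → g = 1 := by
    intro g h1 h2
    have h3 : g ∈ N ⊓ H := ⟨h1, h2⟩
    rw [hNH] at h3
    exact Subgroup.mem_bot.mp h3
  have h1 : n⁻¹ * (x * n * x⁻¹) = h * (x * h⁻¹ * x⁻¹) := by
    have h0 : x * n * x⁻¹ = n * h * x * h⁻¹ * x⁻¹ := by
      calc x * n * x⁻¹ = x * (n * h) * h⁻¹ * x⁻¹ := by group
        _ = n * h * x * h⁻¹ * x⁻¹ := by rw [hc]
    rw [h0]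
    group
  have h2 : n⁻¹ * (x * n * x⁻¹) ∈ N := N.mul_mem (N.inv_mem hn) (hN.conj_mem n hn x)
  have h3 : n⁻¹ * (x * n * x⁻¹) ∈ H := by
    rw [h1]
    exact H.mul_mem hh (H.mul_mem (H.mul_mem hx (H.inv_mem hh)) (H.inv_mem hx))
  have h4 : n⁻¹ * (x * n * x⁻¹) = 1 := htriv _ h2 h3
  have h5 : h * (x * h⁻¹ * x⁻¹) = 1 := by
    rw [← h1]
    exact h4
  constructor
  · have h6 : n = x * n * x⁻¹ := inv_mul_eq_one.mp h4
    have h7 : n * x = x * n := eq_mul_inv_iff_mul_eq.mp h6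
    exact h7.symm
  · have h6 : x * h⁻¹ * x⁻¹ = h⁻¹ := eq_inv_of_mul_eq_one_right h5
    have h7 : x * h⁻¹ = h⁻¹ * x := mul_inv_eq_iff_eq_mul.mp h6
    calc x * h = h * (h⁻¹ * x) * h := by group
      _ = h * (x * h⁻¹) * h := by rw [h7]
      _ = h * x := by group

theorem fc_split : SplitStmt.{u} := by
  intro G _ _ N H x hN hNH hsup hx
  haveI := hN
  have hdec : ∀ g : G, ∃ n ∈ N, ∃ h ∈ H, g = n * h := by
    intro g
    have hg : g ∈ (↑(N ⊔ H) : Set G) := by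
      rw [hsup]
      exact Set.mem_univ g
    rw [Subgroup.normal_mul] at hg
    obtain ⟨n, hn, h, hh, rfl⟩ := Set.mem_mul.mp hg
    exact ⟨n, hn, h, hh, rfl⟩
  have htriv : ∀ g : G, g ∈ N → g ∈ H → g = 1 := by
    intro g h1 h2
    have h3 : g ∈ N ⊓ H := ⟨h1, h2⟩
    rw [hNH] at h3
    exact Subgroup.mem_bot.mp h3
  have hmem : ∀ g : G, g ∈ Cen x ↔ x * g = g * x := by
    intro g
    rw [Subgroup.mem_centralizer_iff]
    simp
  have hcompl : Subgroup.IsComplement' N H := by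
    apply Subgroup.isComplement'_of_disjoint_and_mul_eq_univ (disjoint_iff.mpr hNH)
    rw [← Subgroup.normal_mul, hsup, Subgroup.coe_top]
  have hG : Nat.card N * Nat.card H = Nat.card G := hcompl.card_mul_card
  have hC : Nat.card ↥(Cen x ⊓ N) * Nat.card ↥(Cen x ⊓ H) = Nat.card ↥(Cen x) := by
    rw [← Nat.card_prod]
    apply Nat.card_congr
    refine Equiv.ofBijective
      (fun p => ⟨(p.1 : G) * (p.2 : G), (Cen x).mul_mem p.1.2.1 p.2.2.1⟩) ⟨?_, ?_⟩
    · rintro ⟨⟨n, hn⟩, ⟨h, hh⟩⟩ ⟨⟨n', hn'⟩, ⟨h', hh'⟩⟩ heq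
      have heq' : n * h = n' * h' := congrArg Subtype.val heq
      have h1 : n'⁻¹ * n = h' * h⁻¹ := by
        calc n'⁻¹ * n = n'⁻¹ * (n * h) * h⁻¹ := by group
          _ = n'⁻¹ * (n' * h') * h⁻¹ := by rw [heq']
          _ = h' * h⁻¹ := by group
      have h2 : n'⁻¹ * n = 1 := by
        apply htriv _ (N.mul_mem (N.inv_mem hn'.2) hn.2)
        rw [h1]
        exact H.mul_mem hh'.2 (H.inv_mem hh.2)
      have h3 : h' * h⁻¹ = 1 := by
        rw [← h1]
        exact h2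
      have e1 : n = n' := (inv_mul_eq_one.mp h2).symm
      have e2 : h = h' := (mul_inv_eq_one.mp h3).symm
      subst e1
      subst e2
      rfl
    · rintro ⟨g, hg⟩
      obtain ⟨n, hn, h, hh, rfl⟩ := hdec g
      obtain ⟨hnc, hhc⟩ := split_helper34_key N H x hN hNH hx n h hn hh ((hmem _).mp hg)
      exact ⟨(⟨n, (hmem n).mpr hnc, hn⟩, ⟨h, (hmem h).mpr hhc, hh⟩), rfl⟩
  have hrN : Nat.card ↥(Cen x ⊓ N) * (Cen x).relIndex N = Nat.card N := by
    have h1 := Subgroup.relIndex_mul_relIndex (H := ⊥) (K := Cen x ⊓ N) (L := N) bot_le inf_le_right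
    rw [Subgroup.relIndex_bot_left, Subgroup.relIndex_bot_left, Subgroup.inf_relIndex_right] at h1
    exact h1
  have hrH : Nat.card ↥(Cen x ⊓ H) * (Cen x).relIndex H = Nat.card H := by
    have h1 := Subgroup.relIndex_mul_relIndex (H := ⊥) (K := Cen x ⊓ H) (L := H) bot_le inf_le_right
    rw [Subgroup.relIndex_bot_left, Subgroup.relIndex_bot_left, Subgroup.inf_relIndex_right] at h1
    exact h1
  have hcs : Nat.card ↥(Cen x) * cs x = Nat.card G := Subgroup.card_mul_index (Cen x)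
  have hapos : 0 < Nat.card ↥(Cen x ⊓ N) := Nat.card_pos
  have hbpos : 0 < Nat.card ↥(Cen x ⊓ H) := Nat.card_pos
  have key : Nat.card ↥(Cen x ⊓ N) * Nat.card ↥(Cen x ⊓ H) * cs x =
      Nat.card ↥(Cen x ⊓ N) * Nat.card ↥(Cen x ⊓ H) *
        ((Cen x).relIndex N * (Cen x).relIndex H) := by
    calc Nat.card ↥(Cen x ⊓ N) * Nat.card ↥(Cen x ⊓ H) * cs x
        = Nat.card ↥(Cen x) * cs x := by rw [hC]
      _ = Nat.card G := hcs
      _ = Nat.card N * Nat.card H := hG.symm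
      _ = (Nat.card ↥(Cen x ⊓ N) * (Cen x).relIndex N) *
          (Nat.card ↥(Cen x ⊓ H) * (Cen x).relIndex H) := by rw [hrN, hrH]
      _ = Nat.card ↥(Cen x ⊓ N) * Nat.card ↥(Cen x ⊓ H) *
          ((Cen x).relIndex N * (Cen x).relIndex H) := by ring
  exact Nat.eq_of_mul_eq_mul_left (Nat.mul_pos hapos hbpos) key

end Cfsg.Agent.Lib.Helper4.FC
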