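import Mathlib
import Cfsg.Agent.Lib.Helper92.FT12Defs
import Cfsg.Agent.Lib.Helper3.BG12b
import Cfsg.Agent.S0051

/-!
# S1421 (helper92's FT12 project), piece EPN: the adapted subgroup in the nonabelian Sylow case
(a complement of `A₀ = A ∩ C(M_σ)` in `E`, by Gaschütz).
-/

set_option autoImplicit false

namespace Cfsg.Agent.Lib.Helper34.FT12

open Cfsg Cfsg.Agent.Lib.Helper92.FT

universe u

theorem epN_of (hn : NonabStmt.{u}) : EpNStmt.{u} := by
  intro G _ _ hG M E hH p _ A hT hS hσ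
  classical
  have hp : p.Prime := Fact.out
  obtain ⟨hn1, hn2⟩ := hn G hG M E hH.hM hH.hE p A hT hS hσ
  have hEM : E ≤ M := hH.hE.1
  have hA₀E : A ⊓ Subgroup.centralizer (sigmaCore M : Set G) ≤ E := inf_le_left.trans hT.hAE
  have hA₀p : ∀ a ∈ A ⊓ Subgroup.centralizer (sigmaCore M : Set G), a ^ p = 1 :=
    fun a ha => hT.hA.2 a ha.1
  have hA₀fix : ∀ a ∈ A ⊓ Subgroup.centralizer (sigmaCore M : Set G), Fix M a := by
    intro a ha
    unfold Cfsg.Agent.Lib.Helper92.FT.Fix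
    have h1 : sigmaCore M ⊓ Subgroup.centralizer ({a} : Set G) = sigmaCore M := by
      apply inf_eq_left.mpr
      intro s hs
      rw [Subgroup.mem_centralizer_iff]
      intro y hy
      rw [Set.mem_singleton_iff] at hy
      subst hy
      exact (Subgroup.mem_centralizer_iff.mp ha.2 s hs).symm
    rw [h1]
    exact hσ
  have hpelt : ∀ a : G, a ^ p = 1 → PElt p a := by
    intro a ha
    have hdvd : orderOf a ∣ p := orderOf_dvd_of_pow_eq_one ha
    rcases (Nat.dvd_prime hp).mp hdvd with h | h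
    · exact ⟨0, by rw [h, pow_zero]⟩
    · exact ⟨1, by rw [h, pow_one]⟩
  have hfixconj : ∀ g ∈ E, ∀ e : G, Fix M e → Fix M (g * e * g⁻¹) := by
    intro g hg e he
    unfold Cfsg.Agent.Lib.Helper92.FT.Fix at he ⊢
    intro hbot
    apply he
    rw [eq_bot_iff]
    rintro s ⟨hs1, hs2⟩
    have hgN := Cfsg.Agent.Lib.Helper3.BG12.sigmaCore_normalizer M (hEM hg)
    have h1 : g * s * g⁻¹ ∈ sigmaCore M := (Subgroup.mem_normalizer_iff.mp hgN s).mp hs1
    have h2 : g * s * g⁻¹ ∈ Subgroup.centralizer ({g * e * g⁻¹} : Set G) := by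
      rw [Subgroup.mem_centralizer_iff]
      intro y hy
      rw [Set.mem_singleton_iff] at hy
      subst hy
      have hse := Subgroup.mem_centralizer_iff.mp hs2 e rfl
      calc g * e * g⁻¹ * (g * s * g⁻¹) = g * (e * s) * g⁻¹ := by group
        _ = g * (s * e) * g⁻¹ := by rw [hse]
        _ = g * s * g⁻¹ * (g * e * g⁻¹) := by group
    have h3 : g * s * g⁻¹ ∈ (⊥ : Subgroup G) := by
      rw [← hbot]
      exact ⟨h1, h2⟩
    rw [Subgroup.mem_bot] at h3 ⊢
    calc s = g⁻¹ * (g * s * g⁻¹) * g := by group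
      _ = 1 := by rw [h3]; group
  have hA₀norm : ∀ g ∈ E, ∀ a ∈ A ⊓ Subgroup.centralizer (sigmaCore M : Set G),
      g * a * g⁻¹ ∈ A ⊓ Subgroup.centralizer (sigmaCore M : Set G) := by
    intro g hg a ha
    apply hn1 (g * a * g⁻¹) (E.mul_mem (E.mul_mem hg (hA₀E ha)) (E.inv_mem hg))
    · apply hpelt
      rw [conj_pow, hA₀p a ha]
      group
    · exact hfixconj g hg a (hA₀fix a ha)
  -- a Sylow `p`-subgroup of `E`
  obtain ⟨P'⟩ : Nonempty (Sylow p ↥E) := inferInstance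
  have hPE : (P' : Subgroup ↥E).map E.subtype ≤ E := Subgroup.map_subtype_le _
  have hPp : IsPGroup p ((P' : Subgroup ↥E).map E.subtype) := P'.2.map _
  have hPsub : ((P' : Subgroup ↥E).map E.subtype).subgroupOf E = (P' : Subgroup ↥E) := by
    ext x
    rw [Subgroup.mem_subgroupOf]
    constructor
    · rintro ⟨y, hy, hyx⟩
      have : y = x := Subtype.ext hyx
      rw [← this]
      exact hy
    · intro hx
      exact ⟨x, hx, rfl⟩
  have hPidx : ¬ p ∣ ((P' : Subgroup ↥E).map E.subtype).relIndex E := by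
    unfold Subgroup.relIndex
    rw [hPsub]
    exact P'.not_dvd_index
  obtain ⟨C, hCP, hAC, hACsup, c, hcC, hc⟩ :=
    hn2 ((P' : Subgroup ↥E).map E.subtype) ⟨hPE, hPp, hPidx⟩
  have hA₀P : A ⊓ Subgroup.centralizer (sigmaCore M : Set G) ≤
      (P' : Subgroup ↥E).map E.subtype := by
    rw [← hACsup]
    exact le_sup_left
  -- Gaschütz
  have hKn : ((A ⊓ Subgroup.centralizer (sigmaCore M : Set G)).subgroupOf E).Normal := by
    constructor
    intro n hn' g
    rw [Subgroup.mem_subgroupOf] at hn' ⊢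
    exact hA₀norm g g.2 n hn'
  have hKc : IsMulCommutative ((A ⊓ Subgroup.centralizer (sigmaCore M : Set G)).subgroupOf E) := by
    refine ⟨⟨fun a b => ?_⟩⟩
    have ha : ((a : ↥E) : G) ∈ A := (Subgroup.mem_subgroupOf.mp a.2).1
    have hb : ((b : ↥E) : G) ∈ A := (Subgroup.mem_subgroupOf.mp b.2).1
    have h1 := hT.hA.1.is_comm.comm ⟨_, ha⟩ ⟨_, hb⟩
    have h2 : ((a : ↥E) : G) * ((b : ↥E) : G) = ((b : ↥E) : G) * ((a : ↥E) : G) :=
      congrArg Subtype.val h1
    exact Subtype.ext (Subtype.ext h2)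
  have hKpg : IsPGroup p ((A ⊓ Subgroup.centralizer (sigmaCore M : Set G)).subgroupOf E) := by
    intro x
    refine ⟨1, ?_⟩
    apply Subtype.ext
    apply Subtype.ext
    have h1 := hA₀p _ (Subgroup.mem_subgroupOf.mp x.2)
    simpa using h1
  obtain ⟨j, hj⟩ := IsPGroup.iff_card.mp hKpg
  have hcop : (Nat.card ((A ⊓ Subgroup.centralizer (sigmaCore M : Set G)).subgroupOf E)).Coprime
      (((P' : Subgroup ↥E).map E.subtype).subgroupOf E).index := by
    rw [hj]
    exact Nat.Coprime.pow_left j ((Nat.Prime.coprime_iff_not_dvd hp).mpr hPidx)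
  have hKU : (A ⊓ Subgroup.centralizer (sigmaCore M : Set G)).subgroupOf E ≤
      ((P' : Subgroup ↥E).map E.subtype).subgroupOf E :=
    fun x hx => Subgroup.mem_subgroupOf.mpr (hA₀P (Subgroup.mem_subgroupOf.mp hx))
  have hAU : C.subgroupOf E ≤ ((P' : Subgroup ↥E).map E.subtype).subgroupOf E :=
    fun x hx => Subgroup.mem_subgroupOf.mpr (hCP (Subgroup.mem_subgroupOf.mp hx))
  have hAK : C.subgroupOf E ⊓
      (A ⊓ Subgroup.centralizer (sigmaCore M : Set G)).subgroupOf E = ⊥ := by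
    rw [eq_bot_iff]
    rintro x ⟨hx1, hx2⟩
    have h1 : (x : G) ∈ (A ⊓ Subgroup.centralizer (sigmaCore M : Set G)) ⊓ C :=
      ⟨Subgroup.mem_subgroupOf.mp hx2, Subgroup.mem_subgroupOf.mp hx1⟩
    rw [hAC, Subgroup.mem_bot] at h1
    rw [Subgroup.mem_bot]
    exact Subtype.ext h1
  have hKA : (A ⊓ Subgroup.centralizer (sigmaCore M : Set G)).subgroupOf E ⊔ C.subgroupOf E =
      ((P' : Subgroup ↥E).map E.subtype).subgroupOf E := by
    rw [← Subgroup.subgroupOf_sup hA₀E (hCP.trans hPE), hACsup]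
  haveI := hKn
  haveI := hKc
  obtain ⟨H', hH'⟩ := Cfsg.Agent.S0051.result
    ((A ⊓ Subgroup.centralizer (sigmaCore M : Set G)).subgroupOf E)
    (((P' : Subgroup ↥E).map E.subtype).subgroupOf E) hKU hcop (C.subgroupOf E) hAU hAK hKA
  have hEpsub : (H'.map E.subtype).subgroupOf E = H' := by
    ext x
    rw [Subgroup.mem_subgroupOf]
    constructor
    · rintro ⟨y, hy, hyx⟩
      have : y = x := Subtype.ext hyx
      rw [← this]
      exact hy
    · intro hx
      exact ⟨x, hx, rfl⟩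
  refine ⟨H'.map E.subtype, Subgroup.map_subtype_le _, ?_, ?_, ?_⟩
  · intro r hr hrp hdvd
    unfold Subgroup.relIndex at hdvd
    rw [hEpsub, hH'.index_eq_card, hj] at hdvd
    exact hrp ((Nat.prime_dvd_prime_iff_eq hr hp).mp (hr.dvd_of_dvd_pow hdvd))
  · -- the element of maximal order
    have hcE : c ∈ E := hPE (hCP hcC)
    obtain ⟨⟨k, h⟩, hkh⟩ := hH'.2 (⟨c, hcE⟩ : ↥E)
    have hkh' : (k : ↥E) * (h : ↥E) = ⟨c, hcE⟩ := hkh
    refine ⟨((h : ↥E) : G), ⟨(h : ↥E), h.2, rfl⟩, ?_⟩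
    have hcdvd : orderOf c ∣ orderOf ((h : ↥E) : G) := by
      apply orderOf_dvd_of_pow_eq_one
      have h1 : ((⟨c, hcE⟩ : ↥E) ^ orderOf ((h : ↥E) : G)) ∈
          (A ⊓ Subgroup.centralizer (sigmaCore M : Set G)).subgroupOf E := by
        rw [← QuotientGroup.eq_one_iff, QuotientGroup.mk_pow, ← hkh', QuotientGroup.mk_mul,
          (QuotientGroup.eq_one_iff (k : ↥E)).mpr k.2, one_mul, ← QuotientGroup.mk_pow,
          QuotientGroup.eq_one_iff]
        have h2 : (h : ↥E) ^ orderOf ((h : ↥E) : G) = 1 := by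
          apply Subtype.ext
          rw [Subgroup.coe_pow, pow_orderOf_eq_one]
          rfl
        rw [h2]
        exact Subgroup.one_mem _
      have h3 : c ^ orderOf ((h : ↥E) : G) ∈
          (A ⊓ Subgroup.centralizer (sigmaCore M : Set G)) ⊓ C := by
        refine ⟨?_, C.pow_mem hcC _⟩
        have := Subgroup.mem_subgroupOf.mp h1
        simpa using this
      rw [hAC, Subgroup.mem_bot] at h3
      exact h3
    intro x hx hxp
    refine dvd_trans ?_ hcdvd
    obtain ⟨kx, hkx⟩ := hxp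
    have hzp : IsPGroup p (Subgroup.zpowers (⟨x, hx⟩ : ↥E)) := by
      apply IsPGroup.of_card (n := kx)
      rw [Nat.card_zpowers, ← hkx, ← Subgroup.orderOf_coe]
    obtain ⟨Q, hQ⟩ := hzp.exists_le_sylow
    obtain ⟨g, hg⟩ := MulAction.exists_smul_eq ↥E Q P'
    have hxQ : (⟨x, hx⟩ : ↥E) ∈ (Q : Subgroup ↥E) := hQ (Subgroup.mem_zpowers _)
    have h1 : MulAut.conj g • (⟨x, hx⟩ : ↥E) ∈ ((g • Q : Sylow p ↥E) : Subgroup ↥E) := by
      rw [Sylow.coe_subgroup_smul]
      exact Subgroup.smul_mem_pointwise_smul _ _ _ hxQ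
    rw [hg] at h1
    have h2 : (g : G) * x * (g : G)⁻¹ ∈ (P' : Subgroup ↥E).map E.subtype := by
      refine ⟨MulAut.conj g • (⟨x, hx⟩ : ↥E), h1, ?_⟩
      simp [MulAut.smul_def]
    have h3 := hc _ h2
    have h4 : orderOf ((g : G) * x * (g : G)⁻¹) = orderOf x :=
      orderOf_injective (MulAut.conj (g : G)).toMonoidHom (MulAut.conj (g : G)).injective x
    rw [h4] at h3
    exact h3
  · intro z hz hzo hfix
    obtain ⟨h, hh, rfl⟩ := hz
    have hmem := hn1 (E.subtype h) h.2 ⟨1, by rw [hzo, pow_one]⟩ hfix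
    have hK : h ∈ (A ⊓ Subgroup.centralizer (sigmaCore M : Set G)).subgroupOf E :=
      Subgroup.mem_subgroupOf.mpr hmem
    have h1 : h = 1 := Subgroup.disjoint_def.mp hH'.disjoint hK hh
    rw [h1, map_one, orderOf_one] at hzo
    exact hp.one_lt.ne hzo

end Cfsg.Agent.Lib.Helper34.FT12
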