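import Mathlib
import Cfsg.Agent.S0678

set_option autoImplicit false

namespace Cfsg.Agent.Lib.Helper34.G4

open Equiv

theorem deg7
    (hE : ∀ (T : Subgroup (Equiv.Perm (Fin 7))), IsSimpleGroup T → Nat.card T = 168 →
      Nonempty (T ≃* GL (Fin 3) (ZMod 2)))
    (T : Subgroup (Equiv.Perm (Fin 7))) [MulAction.IsPretransitive T (Fin 7)]
    (hT : ¬ Group.IsSolvable T) (hA : T ≤ alternatingGroup (Fin 7)) :
    Nonempty (T ≃* alternatingGroup (Fin 7)) ∨ Nonempty (T ≃* GL (Fin 3) (ZMod 2)) := by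
  by_cases h : alternatingGroup (Fin 7) ≤ T
  · left
    have e : T = alternatingGroup (Fin 7) := le_antisymm hA h
    exact ⟨MulEquiv.subgroupCongr e⟩
  · right
    obtain ⟨hcard, hsimple⟩ := Cfsg.Agent.S0678.result (α := Fin 7) (by simp) T hT h
    exact hE T hsimple hcard

end Cfsg.Agent.Lib.Helper34.G4
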