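import Mathlib
import Cfsg.Agent.S0713

set_option autoImplicit false

namespace Cfsg.Agent.Lib.Helper34.G4

open Equiv
open Pointwise

/-- an element of order 5 of `Perm (Fin 8)` is a 5-cycle -/
theorem five_cycle_of_order (y : Perm (Fin 8)) (hy : orderOf y = 5) :
    y.IsCycle ∧ y.support.card = 5 := by
  have hpr : (orderOf y).Prime := by rw [hy]; exact Nat.prime_five
  obtain ⟨n, hn⟩ := Equiv.Perm.cycleType_prime_order hpr
  rw [hy] at hn
  have hsum : y.cycleType.sum = y.support.card := Equiv.Perm.sum_cycleType y
  rw [hn, Multiset.sum_replicate, smul_eq_mul] at hsum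
  have hle : y.support.card ≤ 8 := by
    have := Finset.card_le_univ y.support
    simpa using this
  have hn0 : n = 0 := by omega
  subst hn0
  constructor
  · rw [← Equiv.Perm.card_cycleType_eq_one, hn]; simp
  · omega

theorem deg8_five (T : Subgroup (Equiv.Perm (Fin 8))) [MulAction.IsPretransitive T (Fin 8)]
    (h5 : 5 ∣ Nat.card T) : alternatingGroup (Fin 8) ≤ T := by
  have : Fact (Nat.Prime 5) := ⟨Nat.prime_five⟩
  obtain ⟨y, hy⟩ := exists_prime_orderOf_dvd_card' 5 h5
  have hy' : orderOf (y : Perm (Fin 8)) = 5 := by rw [Subgroup.orderOf_coe]; exact hy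
  obtain ⟨hcyc, hsupp⟩ := five_cycle_of_order _ hy'
  have hy5 : y ^ 5 = 1 := by rw [← hy]; exact pow_orderOf_eq_one y
  obtain ⟨a, ha⟩ : ∃ a, (y : Perm (Fin 8)) a ≠ a := by
    have : (y : Perm (Fin 8)).support.Nonempty := by
      rw [← Finset.card_pos, hsupp]; norm_num
    obtain ⟨a, ha⟩ := this
    exact ⟨a, Equiv.Perm.mem_support.mp ha⟩
  have hprim : MulAction.IsPreprimitive T (Fin 8) := by
    refine { isTrivialBlock_of_isBlock := ?_ }
    intro B hB
    rcases Set.eq_empty_or_nonempty B with rfl | ⟨b, hb⟩
    · left; exact Set.subsingleton_empty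
    obtain ⟨g, hg⟩ := MulAction.exists_smul_eq T b a
    rw [← MulAction.IsTrivialBlock.smul_iff g]
    have hB' : MulAction.IsBlock T (g • B) := hB.translate g
    have haB : a ∈ g • B := ⟨b, hb, hg⟩
    generalize g • B = C at hB' haB ⊢
    by_cases hyC : y • C = C
    · right
      apply hB'.eq_univ_of_card_lt
      have hsub : ((y : Perm (Fin 8)).support : Set (Fin 8)) ⊆ C := by
        intro x hx
        have hx' : (y : Perm (Fin 8)) x ≠ x := Equiv.Perm.mem_support.mp hx
        obtain ⟨i, hi⟩ := hcyc.exists_zpow_eq ha hx'
        have hstab : y ∈ MulAction.stabilizer T C := hyC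
        have hyi : (y ^ i) • C = C := (MulAction.stabilizer T C).zpow_mem hstab i
        rw [← hyi]
        refine ⟨a, haB, ?_⟩
        rw [← hi]
        rfl
      have hcard : 5 ≤ C.ncard := by
        calc 5 = ((y : Perm (Fin 8)).support : Set (Fin 8)).ncard := by
              rw [Set.ncard_coe_finset, hsupp]
          _ ≤ C.ncard := Set.ncard_le_ncard hsub (Set.toFinite C)
      simp only [Nat.card_eq_fintype_card, Fintype.card_fin]
      omega
    · left
      have hne : ∀ i j : ℕ, i < j → j < 5 → y ^ i • C ≠ y ^ j • C := by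
        intro i j hij hj5 heq
        apply hyC
        have h1 : y ^ (j - i) • C = C := by
          have e : y ^ j = y ^ i * y ^ (j - i) := by rw [← pow_add]; congr 1; omega
          rw [e, mul_smul] at heq
          exact (smul_left_cancel (y ^ i) heq).symm
        have hstab : y ^ (j - i) ∈ MulAction.stabilizer T C := h1
        have key : ∃ m : ℕ, (y ^ (j - i)) ^ m = y := by
          obtain ⟨d, hd⟩ : ∃ d, d = j - i := ⟨_, rfl⟩
          rw [← hd]
          have hd1 : 1 ≤ d := by omega
          have hd4 : d ≤ 4 := by omega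
          interval_cases d
          · exact ⟨1, by simp⟩
          · refine ⟨3, ?_⟩
            rw [← pow_mul]
            calc y ^ (2 * 3) = y ^ 5 * y := by rw [← pow_succ]
              _ = y := by rw [hy5, one_mul]
          · refine ⟨2, ?_⟩
            rw [← pow_mul]
            calc y ^ (3 * 2) = y ^ 5 * y := by rw [← pow_succ]
              _ = y := by rw [hy5, one_mul]
          · refine ⟨4, ?_⟩
            rw [← pow_mul]
            calc y ^ (4 * 4) = (y ^ 5) ^ 3 * y := by rw [← pow_mul, ← pow_succ]
              _ = y := by rw [hy5, one_pow, one_mul]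
        obtain ⟨m, hm⟩ := key
        have h2 : y ∈ MulAction.stabilizer T C := by rw [← hm]; exact pow_mem hstab m
        exact h2
      have hne' : ∀ i j : ℕ, i < 5 → j < 5 → i ≠ j → Disjoint (y ^ i • C) (y ^ j • C) := by
        intro i j hi hj hij
        apply hB'
        rcases Nat.lt_or_gt_of_ne hij with h | h
        · exact hne i j h hj
        · exact (hne j i h hi).symm
      intro c hc c' hc'
      by_contra hcc
      let f : Fin 5 × Bool → Fin 8 := fun p => (y ^ (p.1 : ℕ)) • (cond p.2 c c')
      have hf : Function.Injective f := by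
        rintro ⟨i, ε⟩ ⟨j, ε'⟩ h
        have hmem1 : f (i, ε) ∈ y ^ (i : ℕ) • C :=
          ⟨cond ε c c', by cases ε <;> assumption, rfl⟩
        have hmem2 : f (j, ε') ∈ y ^ (j : ℕ) • C :=
          ⟨cond ε' c c', by cases ε' <;> assumption, rfl⟩
        have hij : i = j := by
          by_contra hij
          have hd := hne' i j i.2 j.2 (fun e => hij (Fin.ext e))
          rw [h] at hmem1
          exact (Set.disjoint_left.mp hd hmem1) hmem2
        subst hij
        have h' : cond ε c c' = cond ε' c c' := smul_left_cancel (y ^ (i : ℕ)) h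
        have hε : ε = ε' := by
          cases ε <;> cases ε'
          · rfl
          · exact absurd h'.symm hcc
          · exact absurd h' hcc
          · rfl
        rw [hε]
      have hcard := Fintype.card_le_of_injective f hf
      simp at hcard
  exact Cfsg.Agent.S0713.result T hprim Nat.prime_five (by simp) (by simp) hcyc hsupp y.2

end Cfsg.Agent.Lib.Helper34.G4
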