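import Mathlib

namespace Cfsg.Agent.Lib.Helper34.GL23AUT

theorem quat_a_pow {N : ℕ} [NeZero N] (k : ZMod (2 * N)) (m : ℕ) :
    (QuaternionGroup.a k : QuaternionGroup N) ^ m = QuaternionGroup.a ((m : ZMod (2 * N)) * k) := by
  induction m with
  | zero => simp
  | succ m ih =>
    rw [pow_succ, ih, QuaternionGroup.a_mul_a]
    congr 1
    push_cast
    ring

theorem quat_a_eq_pow {N : ℕ} [NeZero N] (m : ZMod (2 * N)) :
    (QuaternionGroup.a m : QuaternionGroup N) = QuaternionGroup.a 1 ^ m.val := by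
  rw [quat_a_pow, mul_one, ZMod.natCast_zmod_val]

/-- an automorphism of odd order of a generalized quaternion group of order at least 16 is
trivial -/
theorem quat_aut_odd_trivial {n : ℕ} (hn : 2 ≤ n) (ψ : MulAut (QuaternionGroup (2 ^ n)))
    (r : ℕ) (hr : Odd r) (hψ : ψ ^ r = 1) : ψ = 1 := by
  have : NeZero (2 ^ n) := ⟨by positivity⟩
  have h2N : 2 * 2 ^ n = 2 ^ (n + 1) := by rw [pow_succ]; ring
  have h8 : 8 ≤ 2 * 2 ^ n := by
    have : 2 ^ 2 ≤ 2 ^ n := Nat.pow_le_pow_right (by norm_num) hn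
    omega
  -- ψ (a 1) = a k
  obtain ⟨k, hk⟩ : ∃ k, ψ (QuaternionGroup.a 1) = QuaternionGroup.a k := by
    have ho : orderOf (ψ (QuaternionGroup.a 1)) = 2 * 2 ^ n := by
      rw [MulEquiv.orderOf_eq, QuaternionGroup.orderOf_a_one]
    rcases hx : ψ (QuaternionGroup.a 1) with k | i
    · exact ⟨k, rfl⟩
    · rw [hx, QuaternionGroup.orderOf_xa] at ho
      omega
  have hak : ∀ m : ZMod (2 * 2 ^ n), ψ (QuaternionGroup.a m) = QuaternionGroup.a (m * k) := by
    intro m
    rw [quat_a_eq_pow m, map_pow, hk, quat_a_pow, ZMod.natCast_zmod_val]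
  have hiter : ∀ j : ℕ, (ψ ^ j) (QuaternionGroup.a 1) = QuaternionGroup.a (k ^ j) := by
    intro j
    induction j with
    | zero => simp
    | succ j ih =>
      rw [pow_succ', MulAut.mul_apply, ih, hak, pow_succ]
  have hkr : k ^ r = 1 := by
    have := hiter r
    rw [hψ, MulAut.one_apply] at this
    exact (QuaternionGroup.a.inj this).symm
  have hr0 : r ≠ 0 := by
    rintro rfl
    exact (Nat.not_odd_iff_even.mpr (by decide)) hr
  have hk1 : k = 1 := by
    let u : (ZMod (2 * 2 ^ n))ˣ := Units.ofPowEqOne k r hkr hr0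
    have hu : u ^ r = 1 := by
      apply Units.ext
      simp [u, hkr]
    have h1 : orderOf u ∣ r := orderOf_dvd_of_pow_eq_one hu
    have h2 : orderOf u ∣ 2 ^ n := by
      have h3 : orderOf u ∣ Fintype.card (ZMod (2 * 2 ^ n))ˣ := orderOf_dvd_card
      have h3' : Fintype.card (ZMod (2 * 2 ^ n))ˣ = 2 ^ n := by
        rw [ZMod.card_units_eq_totient, h2N, Nat.totient_prime_pow Nat.prime_two (by omega)]
        simp
      rwa [h3'] at h3
    have h4 : orderOf u = 1 := by
      have hc : Nat.Coprime (2 ^ n) r := Nat.Coprime.pow_left n (Nat.coprime_two_left.mpr hr)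
      exact Nat.eq_one_of_dvd_coprimes hc h2 h1
    have h5 : u = 1 := orderOf_eq_one_iff.mp h4
    have h6 : (u : ZMod (2 * 2 ^ n)) = 1 := by rw [h5]; rfl
    simpa [u] using h6
  subst hk1
  have hak' : ∀ m : ZMod (2 * 2 ^ n), ψ (QuaternionGroup.a m) = QuaternionGroup.a m := by
    intro m
    rw [hak, mul_one]
  -- ψ (xa 0) = xa i
  obtain ⟨i, hi⟩ : ∃ i, ψ (QuaternionGroup.xa 0) = QuaternionGroup.xa i := by
    rcases hx : ψ (QuaternionGroup.xa 0) with j | i
    · exfalso
      have : ψ (QuaternionGroup.xa 0) = ψ (QuaternionGroup.a j) := by rw [hx, hak']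
      have := ψ.injective this
      cases this
    · exact ⟨i, rfl⟩
  have hxa : ∀ m : ZMod (2 * 2 ^ n), ψ (QuaternionGroup.xa m) = QuaternionGroup.xa (i + m) := by
    intro m
    have : (QuaternionGroup.xa m : QuaternionGroup (2 ^ n))
        = QuaternionGroup.xa 0 * QuaternionGroup.a m := by
      rw [QuaternionGroup.xa_mul_a, zero_add]
    rw [this, map_mul, hi, hak', QuaternionGroup.xa_mul_a]
  have hiter2 : ∀ j : ℕ, (ψ ^ j) (QuaternionGroup.xa 0)
      = QuaternionGroup.xa ((j : ZMod (2 * 2 ^ n)) * i) := by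
    intro j
    induction j with
    | zero => simp
    | succ j ih =>
      rw [pow_succ', MulAut.mul_apply, ih, hxa]
      congr 1
      push_cast
      ring
  have hi0 : i = 0 := by
    have := hiter2 r
    rw [hψ, MulAut.one_apply] at this
    have h1 : (r : ZMod (2 * 2 ^ n)) * i = 0 := (QuaternionGroup.xa.inj this).symm
    have hu : IsUnit (r : ZMod (2 * 2 ^ n)) := by
      rw [ZMod.isUnit_iff_coprime, h2N]
      exact Nat.Coprime.pow_right _ (Nat.coprime_two_right.mpr hr)
    exact (hu.mul_right_eq_zero).mp h1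
  subst hi0
  ext x
  rcases x with m | m
  · rw [hak', MulAut.one_apply]
  · rw [hxa, zero_add, MulAut.one_apply]

theorem mulAut_two_group {P : Type*} [Group P] [Finite P] (hP : IsPGroup 2 P)
    (h : IsCyclic P ∨ ∃ n : ℕ, 2 ≤ n ∧ Nonempty (P ≃* QuaternionGroup (2 ^ n))) :
    IsPGroup 2 (MulAut P) := by
  rcases h with hc | ⟨n, hn, ⟨e⟩⟩
  · have := hc
    obtain ⟨k, hk⟩ := (IsPGroup.iff_card.mp hP)
    apply IsPGroup.of_card (n := k - 1)
    rw [IsCyclic.card_mulAut, hk]
    rcases Nat.eq_zero_or_pos k with rfl | hkpos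
    · simp
    · rw [Nat.totient_prime_pow Nat.prime_two hkpos]
      simp
  · have : NeZero (2 ^ n) := ⟨by positivity⟩
    have key : IsPGroup 2 (MulAut (QuaternionGroup (2 ^ n))) := by
      intro φ
      have ho : orderOf φ ≠ 0 := (orderOf_pos φ).ne'
      obtain ⟨s, r, hr, hsr⟩ := Nat.exists_eq_two_pow_mul_odd ho
      refine ⟨s, ?_⟩
      apply quat_aut_odd_trivial hn (φ ^ 2 ^ s) r hr
      rw [← pow_mul, ← hsr, pow_orderOf_eq_one]
    exact key.of_equiv (MulAut.congr e).symm

end Cfsg.Agent.Lib.Helper34.GL23AUT
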