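import Mathlib

/-!
# Project RL (helper48, S2343), piece RL-SIGN (helper34)

The sign of a fixed-point-free involution on `2N` points is `(-1) ^ N`: its cycle type consists
of `N` transpositions.
-/

set_option autoImplicit false

namespace Cfsg.Agent.Lib.Helper48.RL

theorem sign_fixfree_invol {ι : Type*} [Fintype ι] [DecidableEq ι] (π : Equiv.Perm ι)
    (h2 : ∀ i, π (π i) = i) (hfix : ∀ i, π i ≠ i) (N : ℕ) (hcard : Fintype.card ι = 2 * N) :
    Equiv.Perm.sign π = (-1) ^ N := by
  rcases Nat.eq_zero_or_pos N with rfl | hN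
  · have hemp : IsEmpty ι := Fintype.card_eq_zero_iff.mp (by rw [hcard])
    have h1 : π = 1 := Subsingleton.elim _ _
    rw [h1, Equiv.Perm.sign_one, pow_zero]
  · have hne : Nonempty ι := by
      rw [← Fintype.card_pos_iff, hcard]
      omega
    obtain ⟨i0⟩ := hne
    have hπ1 : π ≠ 1 := by
      intro h
      apply hfix i0
      rw [h]
      rfl
    have hπ2 : π ^ 2 = 1 := by
      ext i
      rw [pow_two, Equiv.Perm.mul_apply, h2]
      rfl
    haveI : Fact (Nat.Prime 2) := ⟨Nat.prime_two⟩
    have hord : orderOf π = 2 := orderOf_eq_prime hπ2 hπ1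
    obtain ⟨n, hn⟩ := Equiv.Perm.cycleType_prime_order (σ := π)
      (by rw [hord]; exact Nat.prime_two)
    rw [hord] at hn
    have hsupp : π.support = Finset.univ := by
      ext i
      simp [Equiv.Perm.mem_support, hfix i]
    have hsum : π.cycleType.sum = 2 * N := by
      rw [Equiv.Perm.sum_cycleType, hsupp, Finset.card_univ, hcard]
    rw [hn, Multiset.sum_replicate, smul_eq_mul] at hsum
    have hnN : n + 1 = N := by omega
    rw [Equiv.Perm.sign_of_cycleType, hn, Multiset.sum_replicate, Multiset.card_replicate,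
      smul_eq_mul, hnN, pow_add, mul_comm N 2, pow_mul]
    simp

end Cfsg.Agent.Lib.Helper48.RL
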