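import Mathlib
import Cfsg.Agent.Lib.Helper93.Sl3Defs

/-!
# S2287 piece MATB (helper34, for helper93)

The twelve core relators hold for the matrices `mX 1`, `mH ζ`, `mT`, `mC` of `SL₃(F)`.
-/

set_option autoImplicit false
set_option linter.unusedSimpArgs false

namespace Cfsg.Agent.Lib.Helper93.Sl3

open Polynomial Matrix

section mats

variable {F : Type*} [Field F]

/-- explicit inverse of `mT` -/
def h34_mTi (F : Type*) [Field F] : SpecialLinearGroup (Fin 3) F :=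
  ⟨!![0, -1, 0; 1, 0, 0; 0, 0, 1], by simp [det_fin_three]⟩

/-- explicit inverse of `mC` -/
def h34_mCi (F : Type*) [Field F] : SpecialLinearGroup (Fin 3) F :=
  ⟨!![0, 1, 0; 0, 0, 1; 1, 0, 0], by simp [det_fin_three]⟩

theorem h34_mTi_val : (h34_mTi F).1 = !![0, -1, 0; 1, 0, 0; 0, 0, 1] := rfl
theorem h34_mCi_val : (h34_mCi F).1 = !![0, 1, 0; 0, 0, 1; 1, 0, 0] := rfl

theorem h34_mT_inv : (mT F)⁻¹ = h34_mTi F := by
  apply inv_eq_of_mul_eq_one_right
  apply Subtype.ext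
  simp [mT_val, h34_mTi_val, Matrix.one_fin_three]

theorem h34_mC_inv : (mC F)⁻¹ = h34_mCi F := by
  apply inv_eq_of_mul_eq_one_right
  apply Subtype.ext
  simp [mC_val, h34_mCi_val, Matrix.one_fin_three]

theorem h34_mTi_inv : (h34_mTi F)⁻¹ = mT F := by
  rw [← h34_mT_inv, inv_inv]

theorem h34_mCi_inv : (h34_mCi F)⁻¹ = mC F := by
  rw [← h34_mC_inv, inv_inv]

theorem h34_mX_add (a b : F) : mX (a + b) = mX a * mX b := by
  apply Subtype.ext
  simp [mX_val, add_comm]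

theorem h34_mX_zero : mX (0 : F) = 1 := by
  apply Subtype.ext
  simp [mX_val, Matrix.one_fin_three]

theorem h34_mX_inv (a : F) : (mX a)⁻¹ = mX (-a) := by
  apply inv_eq_of_mul_eq_one_right
  rw [← h34_mX_add, add_neg_cancel, h34_mX_zero]

theorem h34_mX_pow (a : F) (n : ℕ) : (mX a) ^ n = mX (n * a) := by
  induction n with
  | zero => simp [h34_mX_zero]
  | succ n ih =>
    rw [pow_succ, ih, ← h34_mX_add]
    congr 1
    push_cast
    ring

theorem h34_mH_inv (ζ : F) (hζ0 : ζ ≠ 0) : (mH ζ hζ0)⁻¹ = mH ζ⁻¹ (inv_ne_zero hζ0) := by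
  apply inv_eq_of_mul_eq_one_right
  apply Subtype.ext
  simp [mH_val, Matrix.one_fin_three, hζ0]

/-- the Steinberg commutator formula `[x₁₂(a), x₂₃(b)] = x₁₃(ab)` for the matrices -/
theorem h34_steinberg (a b : F) :
    mX a * (mC F * mX b * (mC F)⁻¹) * (mX a)⁻¹ * (mC F * mX b * (mC F)⁻¹)⁻¹ *
      (mT F * mC F * mX (a * b) * (mC F)⁻¹ * (mT F)⁻¹)⁻¹ = 1 := by
  simp only [_root_.mul_inv_rev, inv_inv, h34_mT_inv, h34_mC_inv, h34_mX_inv, h34_mTi_inv, h34_mCi_inv]
  apply Subtype.ext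
  simp [mX_val, mT_val, mC_val, h34_mTi_val, h34_mCi_val, Matrix.one_fin_three]

end mats

/-- MATB -/
theorem mat_relsCore {F : Type*} [Field F] (p : ℕ) [Fact p.Prime] [CharP F p]
    [Algebra (ZMod p) F] (ζ : F)
    (hζ0 : ζ ≠ 0)
    (haC : ∀ i : ℕ, Pres.aC (mX (1 : F)) (gC (mH ζ hζ0) (mC F)) i = mX (ζ ^ i))
    (hpw : Pres.pw p (mX (1 : F)) (gC (mH ζ hζ0) (mC F)) (minpoly (ZMod p) ζ) = 1) :
    ∀ r ∈ relsCore p (minpoly (ZMod p) ζ) (mX (1 : F)) (mH ζ hζ0) (mT F) (mC F), r = 1 := by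
  intro r hr
  simp only [relsCore, List.mem_cons, List.mem_nil_iff, or_false] at hr
  rcases hr with rfl | rfl | rfl | rfl | rfl | rfl | rfl | rfl | rfl | rfl | rfl | rfl
  · rw [h34_mX_pow, CharP.cast_eq_zero, zero_mul, h34_mX_zero]
  · exact hpw
  · simp only [_root_.mul_inv_rev, inv_inv, h34_mT_inv, h34_mC_inv, h34_mX_inv, h34_mTi_inv,
      h34_mCi_inv, h34_mH_inv]
    apply Subtype.ext
    simp [mX_val, mT_val, mC_val, mH_val, h34_mTi_val, h34_mCi_val, Matrix.one_fin_three, hζ0]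
  · rw [haC]
    simp only [_root_.mul_inv_rev, inv_inv, h34_mT_inv, h34_mC_inv, h34_mX_inv, h34_mTi_inv,
      h34_mCi_inv, h34_mH_inv]
    apply Subtype.ext
    simp [mX_val, mT_val, mC_val, mH_val, h34_mTi_val, h34_mCi_val, Matrix.one_fin_three, hζ0]
    ring
  · simp only [_root_.mul_inv_rev, inv_inv, h34_mT_inv, h34_mC_inv, h34_mX_inv, h34_mTi_inv,
      h34_mCi_inv, h34_mH_inv]
    apply Subtype.ext
    simp [mX_val, mT_val, mC_val, mH_val, h34_mTi_val, h34_mCi_val, Matrix.one_fin_three, hζ0]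
  · simp only [_root_.mul_inv_rev, inv_inv, h34_mT_inv, h34_mC_inv, h34_mX_inv, h34_mTi_inv,
      h34_mCi_inv, h34_mH_inv]
    apply Subtype.ext
    simp [mX_val, mT_val, mC_val, mH_val, h34_mTi_val, h34_mCi_val, Matrix.one_fin_three, hζ0]
  · simp only [_root_.mul_inv_rev, inv_inv, h34_mT_inv, h34_mC_inv, h34_mX_inv, h34_mTi_inv,
      h34_mCi_inv, h34_mH_inv]
    apply Subtype.ext
    simp [mX_val, mT_val, mC_val, mH_val, h34_mTi_val, h34_mCi_val, Matrix.one_fin_three]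
  · apply Subtype.ext
    simp [pow_succ, mC_val, Matrix.one_fin_three]
  · simp only [h34_mT_inv]
    apply Subtype.ext
    simp [pow_succ, mC_val, h34_mTi_val, Matrix.one_fin_three]
  · unfold stRel
    simp only [haC]
    have := h34_steinberg (ζ ^ 0) (ζ ^ 0)
    rw [← pow_add] at this
    exact this
  · unfold stRel
    simp only [haC]
    have := h34_steinberg (ζ ^ 1) (ζ ^ 0)
    rw [← pow_add] at this
    exact this
  · unfold stRel
    simp only [haC]
    have := h34_steinberg (ζ ^ 0) (ζ ^ 1)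
    rw [← pow_add] at this
    exact this

end Cfsg.Agent.Lib.Helper93.Sl3
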