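import Mathlib
import Cfsg.Agent.S4134

namespace Cfsg.Agent.Lib.Helper34.SqfF

theorem le_of_relIndex_prime {G : Type*} [Group G] {M Z Q : Subgroup G} {q : ℕ} (hq : q.Prime)
    (hMZ : M ≤ Z) (hZQ : Z ≤ Q) (hidx : M.relIndex Q = q) (w : G) (hwZ : w ∈ Z) (hwM : w ∉ M) :
    Q ≤ Z := by
  have h1 := Subgroup.relIndex_mul_relIndex M Z Q hMZ hZQ
  rw [hidx] at h1
  have h2 : M.relIndex Z ≠ 1 := by
    intro h
    rw [Subgroup.relIndex_eq_one] at h
    exact hwM (h hwZ)
  have h3 : M.relIndex Z = q := by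
    rcases (Nat.dvd_prime hq).mp (Dvd.intro _ h1) with h | h
    · exact absurd h h2
    · exact h
  rw [h3] at h1
  have h4 : Z.relIndex Q = 1 := by
    have : q * Z.relIndex Q = q * 1 := by rw [h1, mul_one]
    exact Nat.eq_of_mul_eq_mul_left hq.pos this
  exact Subgroup.relIndex_eq_one.mp h4

theorem relIndex_dvd_index_of_normal_right {G : Type*} [Group G] [Finite G] (H Q : Subgroup G)
    [Q.Normal] : H.relIndex Q ∣ H.index := by
  have h1 : H.relIndex (H ⊔ Q) ∣ H.index := Subgroup.relIndex_dvd_index_of_le le_sup_left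
  have h2 : H.relIndex Q = H.relIndex (H ⊔ Q) := by
    have e1 : (H ⊓ Q).relIndex Q = H.relIndex Q := Subgroup.inf_relIndex_right _ _
    have e2 : (H ⊓ Q).relIndex H = Q.relIndex H := Subgroup.inf_relIndex_left _ _
    have e3 : Q.relIndex (H ⊔ Q) = Q.relIndex H := Subgroup.relIndex_sup_right _ _
    have c1 := Subgroup.relIndex_mul_relIndex ⊥ Q (H ⊔ Q) bot_le le_sup_right
    have c2 := Subgroup.relIndex_mul_relIndex ⊥ H (H ⊔ Q) bot_le le_sup_left
    have c3 := Subgroup.relIndex_mul_relIndex ⊥ (H ⊓ Q) H bot_le inf_le_left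
    have c4 := Subgroup.relIndex_mul_relIndex ⊥ (H ⊓ Q) Q bot_le inf_le_right
    rw [Subgroup.relIndex_bot_left, Subgroup.relIndex_bot_left] at c1 c2 c3 c4
    rw [e3] at c1
    rw [e2] at c3
    rw [e1] at c4
    have hI : 0 < Nat.card ↥(H ⊓ Q) := Nat.card_pos
    have hQH : 0 < Q.relIndex H := by
      have : 0 < Nat.card ↥H := Nat.card_pos
      rw [← c3] at this
      exact Nat.pos_of_mul_pos_left this
    have : Nat.card ↥(H ⊓ Q) * Q.relIndex H * H.relIndex Q
        = Nat.card ↥(H ⊓ Q) * Q.relIndex H * H.relIndex (H ⊔ Q) := by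
      calc Nat.card ↥(H ⊓ Q) * Q.relIndex H * H.relIndex Q
          = (Nat.card ↥(H ⊓ Q) * H.relIndex Q) * Q.relIndex H := by ring
        _ = Nat.card ↥(H ⊔ Q) := by rw [c4, c1]
        _ = Nat.card ↥(H ⊓ Q) * Q.relIndex H * H.relIndex (H ⊔ Q) := by rw [c3, c2]
    exact Nat.eq_of_mul_eq_mul_left (Nat.mul_pos hI hQH) this
  rw [h2]; exact h1

theorem normal_pgroup_abelian {G : Type*} [Group G] [Finite G] (q : ℕ) [Fact q.Prime]
    (hsq : ∀ x : G, Squarefree (Subgroup.centralizer ({x} : Set G)).index)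
    (Q : Subgroup G) [Q.Normal] (hQ : IsPGroup q Q)
    (hcl : ∀ a ∈ Q, ∀ b ∈ Q, a * b * a⁻¹ * b⁻¹ ∈ Subgroup.center G)
    (x : G) (hx : (orderOf x).Coprime q) (hxQ : ∃ u ∈ Q, x * u ≠ u * x) :
    ∀ a ∈ Q, ∀ b ∈ Q, a * b = b * a := by
  have hq : q.Prime := Fact.out
  obtain ⟨kQ, hkQ⟩ := IsPGroup.iff_card.mp hQ
  -- relIndex of a centralizer in Q is 1 or q
  have hr : ∀ y : G, (Subgroup.centralizer ({y} : Set G)).relIndex Q = 1 ∨
      (Subgroup.centralizer ({y} : Set G)).relIndex Q = q := by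
    intro y
    have h1 : (Subgroup.centralizer ({y} : Set G)).relIndex Q ∣
        (Subgroup.centralizer ({y} : Set G)).index :=
      relIndex_dvd_index_of_normal_right _ _
    have h2 : Squarefree ((Subgroup.centralizer ({y} : Set G)).relIndex Q) :=
      (hsq y).squarefree_of_dvd h1
    have h3 : (Subgroup.centralizer ({y} : Set G)).relIndex Q ∣ Nat.card Q := by
      unfold Subgroup.relIndex
      exact Subgroup.index_dvd_card _
    rw [hkQ] at h3
    obtain ⟨j, hj, hj'⟩ := (Nat.dvd_prime_pow hq).mp h3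
    rw [hj'] at h2 ⊢
    rcases j with _ | _ | j
    · left; simp
    · right; simp
    · exfalso
      have : q * q ∣ q ^ (j + 2) := ⟨q ^ j, by ring⟩
      exact hq.one_lt.ne' (Nat.isUnit_iff.mp (h2 q this))
  -- q-elements
  have hord : ∀ u ∈ Q, (orderOf u).Coprime (orderOf x) := by
    intro u hu
    obtain ⟨k, hk⟩ := hQ ⟨u, hu⟩
    have hk' : u ^ q ^ k = 1 := by
      have := congrArg Subtype.val hk
      simpa using this
    have hdvd : orderOf u ∣ q ^ k := orderOf_dvd_of_pow_eq_one hk'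
    exact Nat.Coprime.coprime_dvd_left hdvd (Nat.Coprime.pow_left _ hx.symm)
  obtain ⟨M, hMdef⟩ : ∃ M : Subgroup G, M = Q ⊓ Subgroup.centralizer ({x} : Set G) := ⟨_, rfl⟩
  have hMQ : M ≤ Q := hMdef ▸ inf_le_left
  have hMx : ∀ m ∈ M, x * m = m * x := by
    intro m hm
    rw [hMdef] at hm
    exact (Cfsg.Agent.S4134.mem_cent x m).mp hm.2
  have hMidx : M.relIndex Q = q := by
    rw [hMdef, Subgroup.inf_relIndex_left]
    rcases hr x with h | h
    · exfalso
      rw [Subgroup.relIndex_eq_one] at h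
      obtain ⟨u, hu, hne⟩ := hxQ
      exact hne ((Cfsg.Agent.S4134.mem_cent x u).mp (h hu))
    · exact h
  -- M is abelian
  have hMab : ∀ u ∈ M, ∀ m ∈ M, u * m = m * u := by
    intro u hu m hm
    have huQ : u ∈ Q := hMQ hu
    have hux : x * u = u * x := hMx u hu
    have hcent := Cfsg.Agent.S4134.cent_mul u x hux.symm (hord u huQ)
    have h1 : (Q ⊓ Subgroup.centralizer ({u * x} : Set G)) ≤ M := by
      rw [hcent, hMdef]
      exact inf_le_inf_left _ inf_le_right
    have h2 := Subgroup.relIndex_mul_relIndex _ M Q h1 hMQ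
    rw [hMidx, Subgroup.inf_relIndex_left] at h2
    have h3 : (Q ⊓ Subgroup.centralizer ({u * x} : Set G)).relIndex M = 1 := by
      rcases hr (u * x) with h | h
      · rw [h] at h2
        exact Nat.eq_one_of_mul_eq_one_right h2
      · rw [h] at h2
        exact Nat.eq_of_mul_eq_mul_right hq.pos (by rw [h2, one_mul])
    have h4 : M ≤ Q ⊓ Subgroup.centralizer ({u * x} : Set G) := Subgroup.relIndex_eq_one.mp h3
    have h5 := (h4 hm).2
    rw [hcent] at h5
    exact (Cfsg.Agent.S4134.mem_cent u m).mp h5.1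
  -- M centralizes the conjugates u⁻¹ x u
  have hconj : ∀ m ∈ M, ∀ u ∈ Q, Commute m (u⁻¹ * x * u) := by
    intro m hm u hu
    have hmx := hMx m hm
    have hc := hcl m (hMQ hm) u hu
    rw [Subgroup.mem_center_iff] at hc
    have hc' : x * (m * u * m⁻¹ * u⁻¹) = (m * u * m⁻¹ * u⁻¹) * x := hc x
    have e : u⁻¹ * x * u * m⁻¹ = u⁻¹ * m⁻¹ * (x * (m * u * m⁻¹ * u⁻¹)) * u := by
      have : x * (m * u * m⁻¹ * u⁻¹) = m * x * (u * m⁻¹ * u⁻¹) := by
        rw [← hmx]; group
      rw [this]; group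
    have h1 : (u⁻¹ * x * u) * m⁻¹ = m⁻¹ * (u⁻¹ * x * u) := by
      rw [e, hc']; group
    have h2 : Commute m⁻¹ (u⁻¹ * x * u) := h1.symm
    exact (Commute.inv_left_iff).mp h2
  have hW : ∀ m ∈ M, ∀ u ∈ Q, Commute m (x * u * x⁻¹ * u⁻¹) := by
    intro m hm u hu
    have h1 : Commute m x := (hMx m hm).symm
    have h2 := hconj m hm u⁻¹ (Q.inv_mem hu)
    rw [inv_inv] at h2
    have h3 : x * u * x⁻¹ * u⁻¹ = x * (u * x * u⁻¹)⁻¹ := by group
    rw [h3]
    exact h1.mul_right h2.inv_right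
  -- some commutator lies outside M
  have hex : ∃ u ∈ Q, x * u * x⁻¹ * u⁻¹ ∉ M := by
    by_contra hcon
    push Not at hcon
    obtain ⟨u, hu, hne⟩ := hxQ
    apply hne
    obtain ⟨w, hw⟩ : ∃ w, w = x * u * x⁻¹ * u⁻¹ := ⟨_, rfl⟩
    have hwM : w ∈ M := hw ▸ hcon u hu
    have hcomm : Commute x w := hMx w hwM
    have hwu : x * u * x⁻¹ = w * u := by rw [hw]; group
    have key : ∀ k : ℕ, x ^ k * u * (x ^ k)⁻¹ = w ^ k * u := by
      intro k
      induction k with
      | zero => simp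
      | succ k ih =>
        have h1 : x ^ (k + 1) * u * (x ^ (k + 1))⁻¹ = x * (x ^ k * u * (x ^ k)⁻¹) * x⁻¹ := by
          rw [pow_succ']; group
        rw [h1, ih]
        have hxw : x * w ^ k = w ^ k * x := (hcomm.pow_right k).eq
        calc x * (w ^ k * u) * x⁻¹ = (x * w ^ k) * u * x⁻¹ := by group
          _ = w ^ k * (x * u * x⁻¹) := by rw [hxw]; group
          _ = w ^ (k + 1) * u := by rw [hwu, pow_succ]; group
    have h1 := key (orderOf x)
    rw [pow_orderOf_eq_one] at h1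
    have h2 : w ^ orderOf x = 1 := by
      have : w ^ orderOf x * u = 1 * u := by rw [← h1]; group
      exact mul_right_cancel this
    have h3 : orderOf w ∣ orderOf x := orderOf_dvd_of_pow_eq_one h2
    have h4 : orderOf w = 1 := Nat.Coprime.eq_one_of_dvd (hord w (hMQ hwM)) h3
    have h5 : w = 1 := orderOf_eq_one_iff.mp h4
    rw [h5, one_mul] at hwu
    calc x * u = x * u * x⁻¹ * x := by group
      _ = u * x := by rw [hwu]
  obtain ⟨u0, hu0, hwM⟩ := hex
  obtain ⟨w, hw⟩ : ∃ w, w = x * u0 * x⁻¹ * u0⁻¹ := ⟨_, rfl⟩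
  rw [← hw] at hwM
  have hwQ : w ∈ Q := by
    rw [hw]
    exact Q.mul_mem (Subgroup.Normal.conj_mem inferInstance u0 hu0 x) (Q.inv_mem hu0)
  have hwc : ∀ m ∈ M, Commute m w := fun m hm => hw ▸ hW m hm u0 hu0
  -- Q centralizes M
  have hQM : ∀ a ∈ Q, ∀ m ∈ M, m * a = a * m := by
    have hle : Q ≤ Q ⊓ Subgroup.centralizer (M : Set G) := by
      apply le_of_relIndex_prime hq _ inf_le_left hMidx w _ hwM
      · intro m hm
        refine ⟨hMQ hm, ?_⟩
        show m ∈ Subgroup.centralizer (M : Set G)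
        rw [Subgroup.mem_centralizer_iff]
        intro h hh
        exact hMab h hh m hm
      · refine ⟨hwQ, ?_⟩
        show w ∈ Subgroup.centralizer (M : Set G)
        rw [Subgroup.mem_centralizer_iff]
        intro h hh
        exact (hwc h hh).eq
    intro a ha m hm
    have : a ∈ Subgroup.centralizer (M : Set G) := (hle ha).2
    rw [Subgroup.mem_centralizer_iff] at this
    exact this m hm
  -- w is central in Q
  have hwQc : ∀ a ∈ Q, w * a = a * w := by
    have hle : Q ≤ Q ⊓ Subgroup.centralizer ({w} : Set G) := by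
      apply le_of_relIndex_prime hq _ inf_le_left hMidx w _ hwM
      · intro m hm
        exact ⟨hMQ hm, (Cfsg.Agent.S4134.mem_cent w m).mpr (hwc m hm).eq.symm⟩
      · exact ⟨hwQ, (Cfsg.Agent.S4134.mem_cent w w).mpr rfl⟩
    intro a ha
    exact (Cfsg.Agent.S4134.mem_cent w a).mp (hle ha).2
  intro a ha b hb
  have hle : Q ≤ Q ⊓ Subgroup.centralizer ({a} : Set G) := by
    apply le_of_relIndex_prime hq _ inf_le_left hMidx w _ hwM
    · intro m hm
      exact ⟨hMQ hm, (Cfsg.Agent.S4134.mem_cent a m).mpr (hQM a ha m hm).symm⟩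
    · exact ⟨hwQ, (Cfsg.Agent.S4134.mem_cent a w).mpr (hwQc a ha).symm⟩
  exact (Cfsg.Agent.S4134.mem_cent a b).mp (hle hb).2

end Cfsg.Agent.Lib.Helper34.SqfF
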