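import Mathlib

/-!
# S1074 (Tits group), piece T2-SOLV (project of helper99)

A finite group with a 2-subgroup of index 5 is solvable.
-/

set_option autoImplicit false
set_option linter.style.haveILetI false

namespace Cfsg.Agent.Lib.Helper99.T2

open scoped commutatorElement

/-- A group of order `5 * 2 ^ b` with `b ≤ 3` is solvable. -/
theorem t2solv_small {Q : Type*} [Group Q] [Finite Q] (b : ℕ) (hb : b ≤ 3)
    (hcard : Nat.card Q = 5 * 2 ^ b) : Group.IsSolvable Q := by
  classical
  haveI : Fact (Nat.Prime 5) := ⟨by norm_num⟩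
  haveI : Fact (Nat.Prime 2) := ⟨by norm_num⟩
  obtain ⟨S⟩ : Nonempty (Sylow 5 Q) := Sylow.nonempty
  have h5 : (5 * 2 ^ b).factorization 5 = 1 := by
    rw [Nat.factorization_mul (by norm_num) (by positivity)]
    simp [Nat.Prime.factorization_self (show Nat.Prime 5 by norm_num), Nat.factorization_pow,
      Nat.factorization_eq_zero_of_not_dvd (show ¬ 5 ∣ 2 by norm_num)]
  have hS : Nat.card S = 5 := by
    rw [Sylow.card_eq_multiplicity, hcard, h5, pow_one]
  have hidx : (S : Subgroup Q).index = 2 ^ b := by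
    have h := (S : Subgroup Q).card_mul_index
    rw [hS, hcard] at h
    exact Nat.eq_of_mul_eq_mul_left (by norm_num) h
  have h1 : Nat.card (Sylow 5 Q) ≡ 1 [MOD 5] := card_sylow_modEq_one 5 Q
  have h2 : Nat.card (Sylow 5 Q) ∣ 2 ^ b := by
    rw [← hidx]
    exact Sylow.card_dvd_index S
  have h3 : Nat.card (Sylow 5 Q) = 1 := by
    have h8 : Nat.card (Sylow 5 Q) ∣ 8 := h2.trans (by
      have : (8 : ℕ) = 2 ^ 3 := by norm_num
      rw [this]
      exact pow_dvd_pow 2 hb)
    have hle : Nat.card (Sylow 5 Q) ≤ 8 := Nat.le_of_dvd (by norm_num) h8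
    have hmod : Nat.card (Sylow 5 Q) % 5 = 1 := h1
    generalize Nat.card (Sylow 5 Q) = n at h8 hle hmod
    interval_cases n <;> simp_all
  haveI : Subsingleton (Sylow 5 Q) := (Nat.card_eq_one_iff_unique.mp h3).1
  haveI hn : (S : Subgroup Q).Normal := Sylow.normal_of_subsingleton S
  haveI : Group.IsSolvable (S : Subgroup Q) := by
    haveI := S.isPGroup'.isNilpotent
    infer_instance
  haveI : Group.IsSolvable (Q ⧸ (S : Subgroup Q)) := by
    have hp : IsPGroup 2 (Q ⧸ (S : Subgroup Q)) :=
      IsPGroup.of_card (n := b) (by rw [← Subgroup.index_eq_card, hidx])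
    haveI := hp.isNilpotent
    infer_instance
  exact solvable_of_ker_le_range (S : Subgroup Q).subtype (QuotientGroup.mk' (S : Subgroup Q))
    (by simp)

theorem t2_solvable_of_two_group_index_five {P : Type*} [Group P] [Finite P] (W : Subgroup P)
    (hW : IsPGroup 2 W) (hidx : W.index = 5) : Group.IsSolvable P := by
  classical
  haveI : Fact (Nat.Prime 2) := ⟨by norm_num⟩
  have hN : IsPGroup 2 W.normalCore := hW.to_le (Subgroup.normalCore_le W)
  haveI : Group.IsSolvable W.normalCore := by
    haveI := hN.isNilpotent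
    infer_instance
  obtain ⟨a, ha⟩ := IsPGroup.iff_card.mp hW
  obtain ⟨c, hc⟩ := IsPGroup.iff_card.mp hN
  have hP : Nat.card P = 5 * 2 ^ a := by rw [← W.card_mul_index, ha, hidx, mul_comm]
  have hq : 2 ^ c * W.normalCore.index = 5 * 2 ^ a := by
    rw [← hc, ← hP, Subgroup.card_mul_index]
  have h120 : W.normalCore.index ∣ 120 := by
    have h : W.normalCore.index ∣ Nat.factorial W.index := by
      rw [Subgroup.normalCore_eq_ker, Subgroup.index_ker, Subgroup.index_eq_card, ← Nat.card_perm]
      exact Subgroup.card_subgroup_dvd_card (MulAction.toPermHom P (P ⧸ W)).range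
    rw [hidx] at h
    exact h
  -- index of the core is 5 * 2 ^ (a - c)
  have hca : c ≤ a := by
    have h1 : 2 ^ c ∣ 5 * 2 ^ a := Dvd.intro _ hq
    have h2 : 2 ^ c ∣ 2 ^ a := (Nat.Coprime.dvd_mul_left (by
      apply Nat.Coprime.pow_left
      norm_num)).mp h1
    exact (Nat.pow_dvd_pow_iff_le_right (by norm_num)).mp h2
  have hi : W.normalCore.index = 5 * 2 ^ (a - c) := by
    have h1 : 2 ^ c * W.normalCore.index = 2 ^ c * (5 * 2 ^ (a - c)) := by
      rw [hq, mul_left_comm, ← pow_add, Nat.add_sub_cancel' hca]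
    exact Nat.eq_of_mul_eq_mul_left (by positivity) h1
  have hb : a - c ≤ 3 := by
    rw [hi] at h120
    have h1 : 2 ^ (a - c) ∣ 24 := by
      have : (120 : ℕ) = 5 * 24 := by norm_num
      rw [this] at h120
      exact Nat.dvd_of_mul_dvd_mul_left (by norm_num) h120
    by_contra hcon
    push_neg at hcon
    have h2 : 2 ^ 4 ∣ 24 := (pow_dvd_pow 2 hcon).trans h1
    norm_num at h2
  haveI : Group.IsSolvable (P ⧸ W.normalCore) :=
    t2solv_small (a - c) hb (by rw [← Subgroup.index_eq_card, hi])
  exact solvable_of_ker_le_range W.normalCore.subtype (QuotientGroup.mk' W.normalCore) (by simp)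

end Cfsg.Agent.Lib.Helper99.T2
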