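import Mathlib

/-!
# Project TG (helper99, S2197), piece TG-IDX8 (helper34)

No subgroup of order 1280 in `P` (of order 10240): the conjugates of `f` fix every coset of such a
subgroup `R`, so the subgroup `D` they generate lies in `R`; `P = D⟨t⟩` with `t ^ 4 ∈ D`, hence
`|P| ≤ 4 |D| ≤ 4 |R|`.
-/

set_option autoImplicit false

namespace Cfsg.Agent.Lib.Helper99.TG

/-- a closure of a conjugation-stable set is conjugation-stable -/
theorem tgidx8_conj {Γ : Type*} [Group Γ] (P : Subgroup Γ) (f : Γ) (p : Γ) (hp : p ∈ P) (d : Γ)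
    (hd : d ∈ Subgroup.closure {x | ∃ p ∈ P, x = p * f * p⁻¹}) :
    p * d * p⁻¹ ∈ Subgroup.closure {x | ∃ p ∈ P, x = p * f * p⁻¹} := by
  induction hd using Subgroup.closure_induction with
  | mem y hy =>
    obtain ⟨p', hp', rfl⟩ := hy
    exact Subgroup.subset_closure ⟨p * p', P.mul_mem hp hp', by group⟩
  | one =>
    have e : p * 1 * p⁻¹ = 1 := by group
    rw [e]
    exact Subgroup.one_mem _
  | mul y z _ _ ihy ihz =>
    have e : p * (y * z) * p⁻¹ = (p * y * p⁻¹) * (p * z * p⁻¹) := by group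
    rw [e]
    exact Subgroup.mul_mem _ ihy ihz
  | inv y _ ih =>
    have e : p * y⁻¹ * p⁻¹ = (p * y * p⁻¹)⁻¹ := by group
    rw [e]
    exact Subgroup.inv_mem _ ih

theorem tg_no_index_eight {Γ : Type*} [Group Γ] [Finite Γ] (P : Subgroup Γ)
    (hP : Nat.card P = 10240) (f t : Γ) (hfP : f ∈ P) (htP : t ∈ P) (gens : Set Γ)
    (hgen : P = Subgroup.closure gens)
    (hslp : ∀ g ∈ gens, ∃ k : ℕ, g * t ^ k ∈ Subgroup.closure {x | ∃ p ∈ P, x = p * f * p⁻¹})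
    (ht4 : t ^ 4 ∈ Subgroup.closure {x | ∃ p ∈ P, x = p * f * p⁻¹})
    (hX : ∀ R : Subgroup Γ, R ≤ P → Nat.card R = 1280 →
      ∀ x : ↥P ⧸ R.subgroupOf P, (⟨f, hfP⟩ : ↥P) • x = x) :
    ∀ R : Subgroup Γ, R ≤ P → Nat.card R ≠ 1280 := by
  intro R hRP hc
  classical
  have key : ∀ p ∈ P, p⁻¹ * f * p ∈ R := by
    intro p hp
    have h := hX R hRP hc (QuotientGroup.mk (⟨p, hp⟩ : ↥P))
    rw [MulAction.Quotient.smul_mk, QuotientGroup.eq, Subgroup.mem_subgroupOf] at h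
    have h' : (f * p)⁻¹ * p ∈ R := by simpa using h
    have e : p⁻¹ * f * p = ((f * p)⁻¹ * p)⁻¹ := by group
    rw [e]
    exact R.inv_mem h'
  have hDR : Subgroup.closure {x | ∃ p ∈ P, x = p * f * p⁻¹} ≤ R := by
    rw [Subgroup.closure_le]
    rintro _ ⟨p, hp, rfl⟩
    have h := key p⁻¹ (P.inv_mem hp)
    rwa [inv_inv] at h
  have hneg : ∀ k : ℕ, ∃ d ∈ Subgroup.closure {x | ∃ p ∈ P, x = p * f * p⁻¹},
      (t ^ k)⁻¹ = d * t ^ (3 * k) := by
    intro k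
    refine ⟨((t ^ 4) ^ k)⁻¹, Subgroup.inv_mem _ (Subgroup.pow_mem _ ht4 k), ?_⟩
    have e : (t ^ 4) ^ k = t ^ (3 * k) * t ^ k := by
      rw [← pow_mul, ← pow_add]
      congr 1
      ring
    rw [e]
    group
  have hdec : ∀ x ∈ P, ∃ d ∈ Subgroup.closure {x | ∃ p ∈ P, x = p * f * p⁻¹}, ∃ j : ℕ,
      x = d * t ^ j := by
    intro x hx
    rw [hgen] at hx
    induction hx using Subgroup.closure_induction with
    | mem g hg =>
      obtain ⟨k, hk⟩ := hslp g hg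
      obtain ⟨d', hd', e⟩ := hneg k
      refine ⟨g * t ^ k * d', Subgroup.mul_mem _ hk hd', 3 * k, ?_⟩
      rw [mul_assoc (g * t ^ k) d', ← e]
      group
    | one => exact ⟨1, Subgroup.one_mem _, 0, by rw [pow_zero, mul_one]⟩
    | mul y z _ _ ihy ihz =>
      obtain ⟨d, hd, i, rfl⟩ := ihy
      obtain ⟨d', hd', j, rfl⟩ := ihz
      refine ⟨d * (t ^ i * d' * (t ^ i)⁻¹),
        Subgroup.mul_mem _ hd (tgidx8_conj P f _ (P.pow_mem htP i) _ hd'), i + j, ?_⟩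
      rw [pow_add]
      group
    | inv y _ ih =>
      obtain ⟨d, hd, i, rfl⟩ := ih
      obtain ⟨d', hd', e⟩ := hneg i
      refine ⟨d' * (t ^ (3 * i) * d⁻¹ * (t ^ (3 * i))⁻¹),
        Subgroup.mul_mem _ hd' (tgidx8_conj P f _ (P.pow_mem htP _) _ (Subgroup.inv_mem _ hd)),
        3 * i, ?_⟩
      rw [mul_inv_rev, e]
      group
  have hdec4 : ∀ x ∈ P, ∃ d ∈ Subgroup.closure {x | ∃ p ∈ P, x = p * f * p⁻¹}, ∃ b : Fin 4,
      x = d * t ^ (b : ℕ) := by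
    intro x hx
    obtain ⟨d, hd, j, rfl⟩ := hdec x hx
    refine ⟨d * (t ^ 4) ^ (j / 4), Subgroup.mul_mem _ hd (Subgroup.pow_mem _ ht4 _),
      ⟨j % 4, Nat.mod_lt _ (by norm_num)⟩, ?_⟩
    rw [mul_assoc, ← pow_mul, ← pow_add, Nat.div_add_mod]
  choose dd hdd bb hbb using hdec4
  have hinj : Function.Injective (fun x : ↥P =>
      ((⟨dd x.1 x.2, hdd x.1 x.2⟩ : ↥(Subgroup.closure {x | ∃ p ∈ P, x = p * f * p⁻¹})),
        bb x.1 x.2)) := by
    intro x y hxy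
    simp only [Prod.mk.injEq, Subtype.mk.injEq] at hxy
    apply Subtype.ext
    rw [hbb x.1 x.2, hbb y.1 y.2, hxy.1, hxy.2]
  have hcard := Nat.card_le_card_of_injective _ hinj
  rw [Nat.card_prod, Nat.card_eq_fintype_card (α := Fin 4), Fintype.card_fin] at hcard
  have hDle : Nat.card ↥(Subgroup.closure {x | ∃ p ∈ P, x = p * f * p⁻¹}) ≤ Nat.card ↥R :=
    Subgroup.card_le_of_le hDR
  omega

end Cfsg.Agent.Lib.Helper99.TG
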