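import Mathlib
import Cfsg.Agent.Lib.Helper23.Syl2

/-!
# S4150 piece TP-SIX (helper34, for helper76)

A transitive subgroup `K` of `Alt(Ω)`, `|Ω| = 6`, containing a `5`-cycle either contains
`Alt(Ω)` or has order `60`.
-/

set_option autoImplicit false

namespace Cfsg.Agent.Lib.Helper34.TwoPr

open Equiv Equiv.Perm MulAction

/-- an even involution of a set of `6` points has exactly `4` moved points -/
theorem even_invol_support_six {Ω : Type*} [Fintype Ω] [DecidableEq Ω]
    (hΩ : Fintype.card Ω = 6) (t : Perm Ω) (ht : orderOf t = 2) (hs : sign t = 1) :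
    t.support.card = 4 := by
  obtain ⟨n, hn⟩ := cycleType_prime_order (σ := t) (by rw [ht]; exact Nat.prime_two)
  rw [ht] at hn
  have hsum : t.cycleType.sum = 2 * (n + 1) := by
    rw [hn, Multiset.sum_replicate, smul_eq_mul, mul_comm]
  have hcard : Multiset.card t.cycleType = n + 1 := by rw [hn, Multiset.card_replicate]
  have hle : t.cycleType.sum ≤ 6 := hΩ ▸ sum_cycleType_le t
  have hsg := sign_of_cycleType t
  rw [hs, hsum, hcard] at hsg
  have hev : Even (2 * (n + 1) + (n + 1)) :=
    (neg_one_pow_eq_one_iff_even (R := ℤˣ) (by decide)).mp hsg.symm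
  rw [← sum_cycleType, hsum]
  obtain ⟨m, hm⟩ := hev
  omega

/-- TP-SIX -/
theorem six_main {Ω : Type*} [Fintype Ω] [DecidableEq Ω] (hΩ : Fintype.card Ω = 6)
    (K : Subgroup (Perm Ω)) (hKA : K ≤ alternatingGroup Ω)
    [IsPretransitive K Ω]
    {τ : Perm Ω} (hτK : τ ∈ K) (hτc : τ.IsCycle) (hτ5 : τ.support.card = 5) :
    alternatingGroup Ω ≤ K ∨ Nat.card K = 60 := by
  classical
  have hΩn : Nat.card Ω = 6 := by rw [Nat.card_eq_fintype_card, hΩ]
  have hnt : Nontrivial Ω := by
    rw [← Fintype.one_lt_card_iff_nontrivial, hΩ]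
    norm_num
  have hA : Nat.card (alternatingGroup Ω) = 360 := by
    have h := two_mul_nat_card_alternatingGroup (α := Ω)
    rw [Nat.card_perm, hΩn] at h
    have h6 : (6 : ℕ).factorial = 720 := by decide
    omega
  have h1 : Nat.card K ∣ 360 := by
    rw [← hA]
    exact Subgroup.card_dvd_of_le hKA
  have hstab : ∀ x : Ω, Nat.card (stabilizer K x) * 6 = Nat.card K := by
    intro x
    have h := (stabilizer K x).card_mul_index
    rwa [index_stabilizer_of_transitive K x, hΩn] at h
  have h6 : 6 ∣ Nat.card K := by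
    obtain ⟨x⟩ : Nonempty Ω := inferInstance
    exact Dvd.intro_left _ (hstab x)
  have h5 : 5 ∣ Nat.card K := by
    have ho : orderOf (⟨τ, hτK⟩ : K) = 5 := by
      rw [Subgroup.orderOf_mk, hτc.orderOf, hτ5]
    rw [← ho]
    exact orderOf_dvd_natCard _
  have h30 : 30 ∣ Nat.card K :=
    Nat.Coprime.mul_dvd_of_dvd_of_dvd (m := 6) (n := 5) (by norm_num) h6 h5
  have hcases : Nat.card K = 30 ∨ Nat.card K = 60 ∨ Nat.card K = 90 ∨ Nat.card K = 120 ∨
      Nat.card K = 180 ∨ Nat.card K = 360 := by
    obtain ⟨b, hb⟩ := h30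
    rw [hb] at h1 ⊢
    have hb12 : b ≤ 12 := by
      have := Nat.le_of_dvd (by norm_num) h1
      omega
    interval_cases b <;> first | (norm_num at h1; done) | norm_num
  -- the three orders excluded by simplicity of `Alt(Ω)`
  have hsimple : ∀ n : ℕ, Nat.card K * n = 360 → 2 ≤ n → n ≤ 4 → False := by
    intro n hn h2n hn4
    have hS : IsSimpleGroup (alternatingGroup Ω) :=
      alternatingGroup.isSimpleGroup (by rw [hΩn]; norm_num)
    have hnc : ¬ IsMulCommutative (alternatingGroup Ω) :=
      Cfsg.Agent.Lib.Helper23.not_comm_of_simple_of_not_prime (by rw [hA]; norm_num)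
    have hH : K.subgroupOf (alternatingGroup Ω) ≠ ⊤ := by
      intro h
      rw [Subgroup.subgroupOf_eq_top] at h
      have := Subgroup.card_le_of_le h
      rw [hA] at this
      nlinarith
    have hidx : (K.subgroupOf (alternatingGroup Ω)).index = n := by
      have h := (K.subgroupOf (alternatingGroup Ω)).card_mul_index
      rw [Nat.card_congr (Subgroup.subgroupOfEquivOfLe hKA).toEquiv, hA, ← hn] at h
      have hpos : 0 < Nat.card K := Nat.card_pos
      exact Nat.eq_of_mul_eq_mul_left hpos h
    have hd := Cfsg.Agent.Lib.Helper23.simple_two_mul_card_dvd_factorial hnc _ hH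
    rw [hidx, hA] at hd
    have hle := Nat.le_of_dvd (Nat.factorial_pos n) hd
    have : n.factorial ≤ (4 : ℕ).factorial := Nat.factorial_le hn4
    have h4 : (4 : ℕ).factorial = 24 := by decide
    omega
  rcases hcases with h | h | h | h | h | h
  · -- order 30
    exfalso
    have : Fact (Nat.Prime 2) := ⟨Nat.prime_two⟩
    obtain ⟨t, ht⟩ := exists_prime_orderOf_dvd_card' (G := K) 2 (by rw [h]; norm_num)
    have ht' : orderOf (t : Perm Ω) = 2 := by rw [Subgroup.orderOf_coe]; exact ht
    have hsg : sign (t : Perm Ω) = 1 := mem_alternatingGroup.mp (hKA t.2)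
    have h4 := even_invol_support_six hΩ (t : Perm Ω) ht' hsg
    have hex : ∃ x, x ∉ (t : Perm Ω).support := by
      by_contra hall
      rw [not_exists] at hall
      have hall : ∀ x, x ∈ (t : Perm Ω).support := fun x => not_not.mp (hall x)
      have : (t : Perm Ω).support = Finset.univ := Finset.eq_univ_iff_forall.mpr hall
      rw [this, Finset.card_univ, hΩ] at h4
      omega
    obtain ⟨x, hx⟩ := hex
    rw [notMem_support] at hx
    have hmem : t ∈ stabilizer K x := by
      rw [mem_stabilizer_iff]
      exact hx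
    have hc5 : Nat.card (stabilizer K x) = 5 := by
      have := hstab x
      omega
    have hdvd : orderOf (⟨t, hmem⟩ : stabilizer K x) ∣ 5 := by
      rw [← hc5]
      exact orderOf_dvd_natCard _
    rw [Subgroup.orderOf_mk, ht] at hdvd
    omega
  · exact Or.inr h
  · exact (hsimple 4 (by rw [h]) (by norm_num) (by norm_num)).elim
  · exact (hsimple 3 (by rw [h]) (by norm_num) (by norm_num)).elim
  · exact (hsimple 2 (by rw [h]) (by norm_num) (by norm_num)).elim
  · left
    have := Subgroup.eq_of_le_of_card_ge hKA (by rw [hA, h])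
    exact this.ge

end Cfsg.Agent.Lib.Helper34.TwoPr
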